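import Mathlib
import Cfsg.Agent.Lib.H08.HallHigman
import Cfsg.Agent.Lib.H03.PSolv
import Cfsg.Agent.Lib.H21.Subsec3
import Cfsg.Agent.Lib.H21.Second4
import Cfsg.Agent.Lib.H21.ModP

/-!
Numerical and group theoretic preliminaries for a moment argument in the principal block.
-/

set_option autoImplicit false

namespace Cfsg.Agent.H08.Mom

open Cfsg

/-- The final inequality. -/
theorem numeric {ι : Type*} [DecidableEq ι] (S : Finset ι) (z : ι → ℤ) (d : ι → ℕ) (i₀ : ι) (h₀ : i₀ ∈ S) (q : ℕ)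
    (hz₀ : z i₀ = 1) (hd₀ : d i₀ = 1) (hd : ∀ i ∈ S, 0 < d i)
    (hsq : ∑ i ∈ S, (z i) ^ 2 = (q : ℤ)) (horth : ∑ i ∈ S, z i * (d i : ℤ) = 0)
    (hbig : ∀ i ∈ S, i ≠ i₀ → z i + q ≤ d i) :
    2 * ∑ i ∈ S, ((z i : ℝ) ^ 3 / (d i : ℝ)) < q := by
  classical
  -- a negative value
  have hneg : ∃ i ∈ S, z i < 0 := by
    by_contra hcon
    push Not at hcon
    have h1 : ∀ i ∈ S, 0 ≤ z i * (d i : ℤ) := fun i hi => mul_nonneg (hcon i hi) (Int.natCast_nonneg _)
    have h2 := (Finset.sum_eq_zero_iff_of_nonneg h1).1 horth i₀ h₀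
    rw [hz₀, hd₀] at h2
    norm_num at h2
  obtain ⟨j, hjS, hj⟩ := hneg
  have hji : j ≠ i₀ := by
    rintro rfl
    rw [hz₀] at hj
    omega
  -- the size of the values
  have hle : ∀ i ∈ S, i ≠ i₀ → (z i) ^ 2 + 1 ≤ q := by
    intro i hi hne
    have h1 : ∑ k ∈ ({i₀, i} : Finset ι), (z k) ^ 2 ≤ ∑ k ∈ S, (z k) ^ 2 := by
      refine Finset.sum_le_sum_of_subset_of_nonneg ?_ (fun k _ _ => sq_nonneg _)
      intro k hk
      rw [Finset.mem_insert, Finset.mem_singleton] at hk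
      rcases hk with rfl | rfl
      · exact h₀
      · exact hi
    rw [Finset.sum_pair (Ne.symm hne), hz₀, hsq] at h1
    nlinarith
  have hq2 : (z j) ^ 2 + 1 ≤ (q : ℤ) := hle j hjS hji
  have hpt : ∀ i ∈ S, i ≠ i₀ → 2 * ((z i : ℝ) ^ 3 / (d i : ℝ)) ≤ (z i : ℝ) ^ 2 := by
    intro i hi hne
    have hdpos : (0 : ℝ) < d i := by exact_mod_cast hd i hi
    rw [← mul_div_assoc, div_le_iff₀ hdpos]
    by_cases hzi : z i ≤ 0
    · have h1 : (z i : ℝ) ≤ 0 := by exact_mod_cast hzi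
      have h2 : (z i : ℝ) ^ 3 ≤ 0 := by
        have : (z i : ℝ) ^ 3 = (z i : ℝ) ^ 2 * (z i : ℝ) := by ring
        rw [this]
        exact mul_nonpos_of_nonneg_of_nonpos (sq_nonneg _) h1
      have h3 : 0 ≤ (z i : ℝ) ^ 2 * (d i : ℝ) := mul_nonneg (sq_nonneg _) hdpos.le
      linarith
    · push Not at hzi
      have h1 := hle i hi hne
      have h2 := hbig i hi hne
      have h3 : 2 * z i ≤ (d i : ℤ) := by nlinarith
      have h4 : 2 * (z i : ℝ) ≤ (d i : ℝ) := by exact_mod_cast h3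
      have h5 : (0 : ℝ) ≤ (z i : ℝ) ^ 2 := sq_nonneg _
      nlinarith
  have hptj : 2 * ((z j : ℝ) ^ 3 / (d j : ℝ)) < (z j : ℝ) ^ 2 - 1 := by
    have hdpos : (0 : ℝ) < d j := by exact_mod_cast hd j hjS
    have h1 : (z j : ℝ) ≤ -1 := by exact_mod_cast (by omega : z j ≤ -1)
    have h2 : (z j : ℝ) ^ 3 < 0 := by
      have : (z j : ℝ) ^ 3 = (z j : ℝ) ^ 2 * (z j : ℝ) := by ring
      rw [this]
      exact mul_neg_of_pos_of_neg (by nlinarith) (by linarith)
    have h3 : (z j : ℝ) ^ 3 / (d j : ℝ) < 0 := div_neg_of_neg_of_pos h2 hdpos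
    have h4 : (1 : ℝ) ≤ (z j : ℝ) ^ 2 := by nlinarith
    linarith
  -- splitting the sum
  have hS1 : S = insert i₀ (insert j ((S.erase i₀).erase j)) := by
    ext k
    simp only [Finset.mem_insert, Finset.mem_erase]
    constructor
    · intro hk
      by_cases h1 : k = i₀
      · exact Or.inl h1
      · by_cases h2 : k = j
        · exact Or.inr (Or.inl h2)
        · exact Or.inr (Or.inr ⟨h2, h1, hk⟩)
    · rintro (rfl | rfl | ⟨-, -, hk⟩)
      · exact h₀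
      · exact hjS
      · exact hk
  have hj0 : j ∉ (S.erase i₀).erase j := by simp
  have hi0 : i₀ ∉ insert j ((S.erase i₀).erase j) := by
    simp [hji.symm]
  set T := (S.erase i₀).erase j with hT
  have hsum1 : ∑ i ∈ S, ((z i : ℝ) ^ 3 / (d i : ℝ)) =
      1 + (((z j : ℝ) ^ 3 / (d j : ℝ)) + ∑ i ∈ T, ((z i : ℝ) ^ 3 / (d i : ℝ))) := by
    rw [hS1, Finset.sum_insert hi0, Finset.sum_insert hj0, hz₀, hd₀]
    norm_num
  have hsum2 : (∑ i ∈ S, (z i) ^ 2 : ℤ) = 1 + ((z j) ^ 2 + ∑ i ∈ T, (z i) ^ 2) := by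
    rw [hS1, Finset.sum_insert hi0, Finset.sum_insert hj0, hz₀]
    norm_num
  have hT1 : 2 * ∑ i ∈ T, ((z i : ℝ) ^ 3 / (d i : ℝ)) ≤ ∑ i ∈ T, (z i : ℝ) ^ 2 := by
    rw [Finset.mul_sum]
    refine Finset.sum_le_sum fun i hi => ?_
    have hi' := hi
    rw [hT, Finset.mem_erase, Finset.mem_erase] at hi'
    exact hpt i hi'.2.2 hi'.2.1
  have hq3 : (q : ℝ) = 1 + ((z j : ℝ) ^ 2 + ∑ i ∈ T, (z i : ℝ) ^ 2) := by
    have h1 : ((∑ i ∈ S, (z i) ^ 2 : ℤ) : ℝ) = (q : ℝ) := by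
      rw [hsq]
      simp
    rw [hsum2] at h1
    push_cast at h1
    linarith
  rw [hsum1, hq3]
  linarith

variable {H : Type*} [Group H] [Finite H] {p : ℕ} [Fact p.Prime]

/-- A `p`-solvable group generated by `p`-elements with abelian `p`-subgroups is a `p`-group modulo `O_{p'}`. -/
theorem isPGroup_quot (hs : IsPSolvable p H) (hab : ∀ T : Subgroup H, IsPGroup p T → ∀ a ∈ T, ∀ b ∈ T, a * b = b * a)
    (S : Set H) (hgen : Subgroup.closure S = ⊤) (hSp : ∀ s ∈ S, ∃ k : ℕ, s ^ p ^ k = 1) :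
    IsPGroup p (H ⧸ pPrimeCore p H) := by
  classical
  haveI hKn : (pPrimeCore p H).Normal := H05.pp_normal p
  set K := pPrimeCore p H with hK
  let φ : H →* H ⧸ K := QuotientGroup.mk' K
  have hφ : Function.Surjective φ := QuotientGroup.mk'_surjective K
  have hQs : IsPSolvable p (H ⧸ K) := H03.isPSolvable_of_surjective hφ hs
  have hQ0 : pPrimeCore p (H ⧸ K) = ⊥ := H08.pPrimeCore_quotient_eq_bot p
  have hcen := H08.hall_higman hQs hQ0
  haveI hOn : (pCore p (H ⧸ K)).Normal := H01.pCore_normal p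
  have hOp : IsPGroup p (pCore p (H ⧸ K)) := H01.pCore_isPGroup p
  -- every `p`-element of the quotient lies in `O_p`
  have hmem : ∀ t : H ⧸ K, (∃ m : ℕ, t ^ p ^ m = 1) → t ∈ pCore p (H ⧸ K) := by
    intro t ⟨m, hm⟩
    have htp : IsPGroup p (Subgroup.zpowers t) := by
      rintro ⟨x, i, rfl⟩
      refine ⟨m, Subtype.ext ?_⟩
      change (t ^ i) ^ p ^ m = 1
      rw [← zpow_natCast, ← zpow_mul, mul_comm, zpow_mul, zpow_natCast, hm, one_zpow]
    obtain ⟨T, hT⟩ := htp.exists_le_sylow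
    obtain ⟨T₁, rfl⟩ := Sylow.mapSurjective_surjective hφ p T
    have htT : t ∈ ((Sylow.mapSurjective hφ T₁ : Sylow p (H ⧸ K)) : Subgroup (H ⧸ K)) := hT (Subgroup.mem_zpowers t)
    apply hcen
    rw [Subgroup.mem_centralizer_iff]
    intro a ha
    have haT : a ∈ ((Sylow.mapSurjective hφ T₁ : Sylow p (H ⧸ K)) : Subgroup (H ⧸ K)) :=
      hOp.le_sylow_of_normal _ ha
    obtain ⟨a₁, ha₁, rfl⟩ := haT
    obtain ⟨t₁, ht₁, rfl⟩ := htT
    change φ a₁ * φ t₁ = φ t₁ * φ a₁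
    rw [← map_mul, ← map_mul, hab _ T₁.isPGroup' a₁ ha₁ t₁ ht₁]
  have htop : pCore p (H ⧸ K) = ⊤ := by
    rw [eq_top_iff]
    rintro t -
    obtain ⟨h, rfl⟩ := hφ t
    have hh : h ∈ Subgroup.closure S := by rw [hgen]; trivial
    induction hh using Subgroup.closure_induction with
    | mem x hx =>
      refine hmem _ ?_
      obtain ⟨k, hk⟩ := hSp x hx
      exact ⟨k, by rw [← map_pow, hk, map_one]⟩
    | one => rw [map_one]; exact Subgroup.one_mem _
    | mul a b _ _ ha hb => rw [map_mul]; exact Subgroup.mul_mem _ ha hb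
    | inv a _ ha => rw [map_inv]; exact Subgroup.inv_mem _ ha
  intro g
  have hg : g ∈ pCore p (H ⧸ K) := by rw [htop]; trivial
  obtain ⟨k, hk⟩ := hOp ⟨g, hg⟩
  exact ⟨k, congrArg Subtype.val hk⟩

/-- With `H/O_{p'}(H)` a `p`-group: if `y x` is `p`-regular and `y` has order `p`, then `y² x` is not `p`-regular. -/
theorem singular_of_regular (hq : IsPGroup p (H ⧸ pPrimeCore p H)) {x y : H} (hy : orderOf y = p)
    (hreg : ¬ p ∣ orderOf (y * x)) : p ∣ orderOf (y * y * x) := by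
  classical
  haveI hKn : (pPrimeCore p H).Normal := H05.pp_normal p
  set K := pPrimeCore p H with hK
  let φ : H →* H ⧸ K := QuotientGroup.mk' K
  have hone : ∀ g : H, ¬ p ∣ orderOf g → φ g = 1 := by
    intro g hg
    obtain ⟨k, hk⟩ := hq (φ g)
    have hk' : φ g ^ p ^ k = 1 := by
      have := congrArg id hk
      simpa using this
    have h1 : orderOf (φ g) ∣ p ^ k := orderOf_dvd_of_pow_eq_one hk'
    have h2 : orderOf (φ g) ∣ orderOf g := orderOf_map_dvd φ g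
    have hcop : Nat.Coprime (p ^ k) (orderOf g) :=
      Nat.Coprime.pow_left _ ((Nat.Prime.coprime_iff_not_dvd Fact.out).2 hg)
    have h3 := Nat.Coprime.eq_one_of_dvd (Nat.Coprime.coprime_dvd_left h1 hcop) h2
    exact orderOf_eq_one_iff.mp h3
  by_contra hcon
  have h1 := hone _ hcon
  have h2 := hone _ hreg
  rw [mul_assoc, map_mul, h2, mul_one] at h1
  have h3 : y ∈ K := (QuotientGroup.eq_one_iff y).mp h1
  have hcop : (Nat.card K).Coprime p := H06.coprime_card_pPrimeCore p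
  have h4 : orderOf (⟨y, h3⟩ : K) ∣ Nat.card K := orderOf_dvd_natCard _
  rw [Subgroup.orderOf_mk, hy] at h4
  have hp : p.Prime := Fact.out
  have := Nat.Coprime.eq_one_of_dvd hcop.symm h4
  exact hp.one_lt.ne' this

end Cfsg.Agent.H08.Mom
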