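import Mathlib
import Cfsg.Agent.Lib.H08.Mom.Basic
import Cfsg.Agent.Lib.H13.Isolated
import Cfsg.Agent.Lib.H19.ZCoprime
import Cfsg.Agent.Lib.H24.FusGroup
import Cfsg.Agent.Lib.H01.BurnsideFix

/-!
Cyclic Sylow subgroups and `p`-solvable pairs of elements of order `p`: the local structure.
-/

set_option autoImplicit false

namespace Cfsg.Agent.H08.Mom.Cyc

open Cfsg

universe u

section basics

variable {H : Type*} [Group H] [Finite H] {p : ℕ} [hp : Fact p.Prime]

/-- The `p`-part of an element is a power of it. -/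
theorem pPart_mem_zpowers {t r g : H} (h : t * r = g) (hc : Commute t r) {k : ℕ} (ht : orderOf t = p ^ k)
    (hr : ¬ p ∣ orderOf r) : t ∈ Subgroup.zpowers g := by
  have hpp : p.Prime := hp.out
  have hcop : (orderOf r).Coprime (orderOf t) := by
    rw [ht]
    exact Nat.Coprime.pow_right _ (((Nat.Prime.coprime_iff_not_dvd hpp).2 hr).symm)
  obtain ⟨a, ha⟩ := exists_pow_eq_self_of_coprime hcop
  have e : g ^ orderOf r = t ^ orderOf r := by
    rw [← h, hc.mul_pow, pow_orderOf_eq_one, mul_one]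
  rw [← ha, ← e, ← pow_mul]
  exact Subgroup.npow_mem_zpowers _ _

theorem isCyclic_of_le_sylow (hcyc : ∀ S : Sylow p H, IsCyclic (S : Subgroup H)) (T : Subgroup H)
    (hT : IsPGroup p T) : IsCyclic T := by
  obtain ⟨S, hS⟩ := hT.exists_le_sylow
  haveI := hcyc S
  let f : T →* (S : Subgroup H) := Subgroup.inclusion hS
  exact isCyclic_of_injective f (Subgroup.inclusion_injective hS)

theorem comm_of_isPGroup (hcyc : ∀ S : Sylow p H, IsCyclic (S : Subgroup H)) (T : Subgroup H)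
    (hT : IsPGroup p T) : ∀ a ∈ T, ∀ b ∈ T, a * b = b * a := by
  intro a ha b hb
  haveI := isCyclic_of_le_sylow hcyc T hT
  letI : CommGroup T := IsCyclic.commGroup
  have h1 : (⟨a, ha⟩ : T) * ⟨b, hb⟩ = ⟨b, hb⟩ * ⟨a, ha⟩ := mul_comm _ _
  exact congrArg Subtype.val h1

theorem isPGroup_zpowers_of_pow {t : H} {k : ℕ} (ht : orderOf t = p ^ k) : IsPGroup p (Subgroup.zpowers t) := by
  rintro ⟨x, i, rfl⟩
  refine ⟨k, Subtype.ext ?_⟩
  change (t ^ i) ^ p ^ k = 1
  rw [← zpow_natCast, ← zpow_mul, mul_comm, zpow_mul, zpow_natCast, ← ht, pow_orderOf_eq_one, one_zpow]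

/-- The structure of a pair. -/
theorem pair_struct (hs : IsPSolvable p H) (hcyc : ∀ S : Sylow p H, IsCyclic (S : Subgroup H)) {x y : H}
    (hx : orderOf x = p) (hy : orderOf y = p) (hgen : Subgroup.closure ({x, y} : Set H) = ⊤) :
    ∃ w ∈ Subgroup.zpowers x, w ≠ 1 ∧ IsConj y w⁻¹ ∧ (∀ k : ℕ, ¬ p ∣ orderOf (y ^ k * w ^ k)) ∧
      (∀ u ∈ Subgroup.zpowers x, u ≠ w → p ∣ orderOf (y * u)) ∧
      (∀ t : H, (∃ k : ℕ, orderOf t = p ^ k) → ∃ v ∈ Subgroup.zpowers x, IsConj t v) := by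
  classical
  have hpp : p.Prime := hp.out
  haveI hKn : (pPrimeCore p H).Normal := H05.pp_normal p
  set K := pPrimeCore p H with hK
  let φ : H →* H ⧸ K := QuotientGroup.mk' K
  have hφ : Function.Surjective φ := QuotientGroup.mk'_surjective K
  have hφ1 : ∀ g : H, φ g = 1 ↔ g ∈ K := fun g => QuotientGroup.eq_one_iff g
  have hcopK : (Nat.card K).Coprime p := H06.coprime_card_pPrimeCore p
  have hab : ∀ T : Subgroup H, IsPGroup p T → ∀ a ∈ T, ∀ b ∈ T, a * b = b * a := comm_of_isPGroup hcyc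
  have hq : IsPGroup p (H ⧸ K) := by
    refine isPGroup_quot hs hab ({x, y} : Set H) hgen ?_
    intro s hs
    refine ⟨1, ?_⟩
    rw [pow_one]
    rcases hs with rfl | hs
    · rw [← hx, pow_orderOf_eq_one]
    · have hs' : s = y := hs
      rw [hs', ← hy, pow_orderOf_eq_one]
  -- `p`-elements in `K` are trivial
  have hKreg : ∀ g ∈ K, ¬ p ∣ orderOf g := by
    intro g hg hd
    have h1 : orderOf g ∣ Nat.card K := by
      have := Subgroup.orderOf_dvd_natCard K hg
      exact this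
    have h2 := Nat.Coprime.eq_one_of_dvd hcopK.symm (hd.trans h1)
    exact hpp.one_lt.ne' h2
  have hKp : ∀ g ∈ K, g ^ p = 1 → g = 1 := by
    intro g hg hgp
    by_contra hg1
    exact hKreg g hg (orderOf_eq_prime hgp hg1 ▸ dvd_rfl)
  have hKpk : ∀ g ∈ K, ∀ m : ℕ, orderOf g = p ^ m → g = 1 := by
    intro g hg m hm
    by_contra hg1
    have hm0 : m ≠ 0 := by
      rintro rfl
      rw [pow_zero, orderOf_eq_one_iff] at hm
      exact hg1 hm
    exact hKreg g hg (by rw [hm]; exact dvd_pow_self p hm0)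
  have hxk : orderOf x = p ^ 1 := by rw [hx, pow_one]
  obtain ⟨T, hT⟩ := (isPGroup_zpowers_of_pow hxk).exists_le_sylow
  have hxT : x ∈ (T : Subgroup H) := hT (Subgroup.mem_zpowers x)
  -- `T` covers the quotient
  have hcover : ∀ c : H ⧸ K, ∃ t ∈ (T : Subgroup H), φ t = c := by
    intro c
    have hTop : IsPGroup p (⊤ : Subgroup (H ⧸ K)) := hq.to_subgroup ⊤
    have hle := hTop.le_sylow_of_normal (Sylow.mapSurjective hφ T) (Subgroup.mem_top c)
    obtain ⟨t, ht, rfl⟩ := hle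
    exact ⟨t, ht, rfl⟩
  have hTord : ∀ t ∈ (T : Subgroup H), ∃ m : ℕ, orderOf t = p ^ m := by
    intro t ht
    obtain ⟨m, hm⟩ := IsPGroup.iff_orderOf.mp T.isPGroup' ⟨t, ht⟩
    exact ⟨m, by rw [← hm, Subgroup.orderOf_mk]⟩
  have hTK : ∀ t ∈ (T : Subgroup H), t ∈ K → t = 1 := by
    intro t ht htK
    obtain ⟨m, hm⟩ := hTord t ht
    exact hKpk t htK m hm
  haveI hTc : IsCyclic (T : Subgroup H) := hcyc T
  -- `y` modulo `K`
  obtain ⟨t, htT, hty⟩ := hcover (φ y)
  have hy1 : y ≠ 1 := by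
    rintro rfl
    rw [orderOf_one] at hy
    exact hpp.one_lt.ne hy
  have hyK : y ∉ K := fun h => hKreg y h (by rw [hy])
  have ht1 : t ≠ 1 := by
    rintro rfl
    rw [map_one] at hty
    exact hyK ((hφ1 y).1 hty.symm)
  have htp : t ^ p = 1 := by
    apply hTK _ (Subgroup.pow_mem _ htT _)
    rw [← hφ1, map_pow, hty, ← map_pow, ← hy, pow_orderOf_eq_one, map_one]
  have htord : orderOf t = p := orderOf_eq_prime htp ht1
  have htx : t ∈ Subgroup.zpowers x := by
    have h1 : (⟨t, htT⟩ : (T : Subgroup H)) ∈ Subgroup.zpowers (⟨x, hxT⟩ : (T : Subgroup H)) := by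
      apply H19.mem_zpowers_of_orderOf_eq_prime (r := p)
      · rw [Subgroup.orderOf_mk, hx]
      · rw [Subgroup.orderOf_mk, htord]
    obtain ⟨i, hi⟩ := h1
    exact ⟨i, by simpa using congrArg Subtype.val hi⟩
  obtain ⟨i, rfl⟩ := htx
  simp only at hty htT ht1 htp htord
  -- everything is a power of `x` modulo `K`
  have hmod : ∀ g : H, ∃ j : ℤ, φ g = φ x ^ j := by
    intro g
    have hg : g ∈ Subgroup.closure ({x, y} : Set H) := by rw [hgen]; trivial
    induction hg using Subgroup.closure_induction with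
    | mem a ha =>
      rcases ha with rfl | ha
      · exact ⟨1, by simp⟩
      · have ha' : a = y := ha
        rw [ha']
        exact ⟨i, by rw [← hty, map_zpow]⟩
    | one => exact ⟨0, by simp⟩
    | mul a b _ _ ha hb =>
      obtain ⟨j, hj⟩ := ha
      obtain ⟨l, hl⟩ := hb
      exact ⟨j + l, by rw [map_mul, hj, hl, zpow_add]⟩
    | inv a _ ha =>
      obtain ⟨j, hj⟩ := ha
      exact ⟨-j, by rw [map_inv, hj, zpow_neg]⟩
  have hcommQ : ∀ a b : H, φ a * φ b = φ b * φ a := by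
    intro a b
    obtain ⟨j, hj⟩ := hmod a
    obtain ⟨l, hl⟩ := hmod b
    rw [hj, hl, ← zpow_add, ← zpow_add, add_comm]
  have hxeq : ∀ j l : ℤ, φ x ^ j = φ x ^ l → x ^ j = x ^ l := by
    intro j l h
    have h1 : x ^ (j - l) ∈ K := by
      rw [← hφ1, map_zpow, zpow_sub, h, mul_inv_cancel]
    have h2 : x ^ (j - l) = 1 := hKp _ h1 (by
      rw [← zpow_natCast, ← zpow_mul, mul_comm, zpow_mul, zpow_natCast, ← hx, pow_orderOf_eq_one, one_zpow])
    rwa [zpow_sub, mul_inv_eq_one] at h2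
  have hTpow : ∀ s ∈ (T : Subgroup H), ∃ j : ℤ, s = x ^ j := by
    intro s hs
    obtain ⟨j, hj⟩ := hmod s
    refine ⟨j, ?_⟩
    have h1 : (x ^ j)⁻¹ * s ∈ K := by
      rw [← hφ1, map_mul, map_inv, map_zpow, hj, inv_mul_cancel]
    have h2 := hTK _ ((T : Subgroup H).mul_mem ((T : Subgroup H).inv_mem ((T : Subgroup H).zpow_mem hxT j)) hs) h1
    rw [inv_mul_eq_one] at h2
    exact h2.symm
  have hconjT : ∀ s : H, (∃ k : ℕ, orderOf s = p ^ k) → ∃ j : ℤ, ∃ g : H, g * s * g⁻¹ = x ^ j := by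
    intro s ⟨k, hk⟩
    obtain ⟨g, hg⟩ := H24.exists_conj_le_sylow T (isPGroup_zpowers_of_pow hk)
    have h1 : g * s * g⁻¹ ∈ (T : Subgroup H) := hg ⟨s, Subgroup.mem_zpowers s, rfl⟩
    obtain ⟨j, hj⟩ := hTpow _ h1
    exact ⟨j, g, hj⟩
  refine ⟨(x ^ i)⁻¹, Subgroup.inv_mem _ (Subgroup.zpow_mem_zpowers x i), inv_ne_one.mpr ht1, ?_, ?_, ?_, ?_⟩
  · rw [inv_inv]
    obtain ⟨j, g, hg⟩ := hconjT y ⟨1, by rw [hy, pow_one]⟩
    have h1 : φ x ^ j = φ x ^ i := by
      rw [← map_zpow, ← hg, ← map_zpow, hty]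
      simp only [map_mul, map_inv]
      rw [hcommQ g y, mul_assoc, mul_inv_cancel, mul_one]
    have h2 := hxeq j i h1
    rw [← h2, ← hg]
    exact isConj_iff.mpr ⟨g, rfl⟩
  · intro k hd
    refine hKreg _ ?_ hd
    rw [← hφ1, map_mul, map_pow, map_pow, map_inv, map_zpow, ← hty, map_zpow, inv_pow, mul_inv_cancel]
  · rintro u ⟨m, rfl⟩ hne
    by_contra hnd
    simp only at hne
    apply hne
    -- `φ (y u) = 1`
    have hone : φ (y * x ^ m) = 1 := by
      obtain ⟨l, hl⟩ := hq (φ (y * x ^ m))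
      have hl' : φ (y * x ^ m) ^ p ^ l = 1 := by simpa using hl
      have h1 : orderOf (φ (y * x ^ m)) ∣ p ^ l := orderOf_dvd_of_pow_eq_one hl'
      have h2 : orderOf (φ (y * x ^ m)) ∣ orderOf (y * x ^ m) := orderOf_map_dvd φ _
      have hcop : Nat.Coprime (p ^ l) (orderOf (y * x ^ m)) :=
        Nat.Coprime.pow_left _ ((Nat.Prime.coprime_iff_not_dvd hpp).2 hnd)
      exact orderOf_eq_one_iff.mp (Nat.Coprime.eq_one_of_dvd (Nat.Coprime.coprime_dvd_left h1 hcop) h2)
    have h3 : φ x ^ m = φ x ^ (-i) := by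
      rw [map_mul, ← hty, map_zpow, map_zpow] at hone
      rw [zpow_neg]
      exact eq_inv_of_mul_eq_one_right hone
    have h4 := hxeq _ _ h3
    change x ^ m = (x ^ i)⁻¹
    rw [h4, zpow_neg]
  · intro s hs
    obtain ⟨j, g, hg⟩ := hconjT s hs
    refine ⟨x ^ j, Subgroup.zpow_mem_zpowers x j, ?_⟩
    rw [← hg]
    exact isConj_iff.mpr ⟨g, rfl⟩

end basics

section G

variable {G : Type u} [Group G] [Finite G] {p : ℕ} [hp : Fact p.Prime]

/-- The structure of a pair in `G`. -/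
theorem pair_G (hcyc : ∀ S : Sylow p G, IsCyclic (S : Subgroup G))
    (hc : ∀ x y : G, orderOf x = p → orderOf y = p → IsPSolvable p ↥(Subgroup.closure ({x, y} : Set G)))
    {x y : G} (hx : orderOf x = p) (hy : orderOf y = p) :
    ∃ w ∈ Subgroup.zpowers x, w ≠ 1 ∧ IsConj y w⁻¹ ∧ (∀ k : ℕ, ¬ p ∣ orderOf (y ^ k * w ^ k)) ∧
      (∀ u ∈ Subgroup.zpowers x, u ≠ w → p ∣ orderOf (y * u)) ∧
      (∀ t ∈ Subgroup.closure ({x, y} : Set G), (∃ k : ℕ, orderOf t = p ^ k) →
        ∃ v ∈ Subgroup.zpowers x, IsConj t v) := by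
  classical
  let H : Subgroup G := Subgroup.closure ({x, y} : Set G)
  have hxH : x ∈ H := Subgroup.subset_closure (by simp)
  have hyH : y ∈ H := Subgroup.subset_closure (by simp)
  have hcycH : ∀ S : Sylow p H, IsCyclic (S : Subgroup H) := by
    intro S
    have h1 : IsPGroup p ((S : Subgroup H).map H.subtype) := S.isPGroup'.map _
    haveI h2 := isCyclic_of_le_sylow hcyc _ h1
    let e := (S : Subgroup H).equivMapOfInjective H.subtype H.subtype_injective
    exact isCyclic_of_injective e.toMonoidHom e.injective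
  have hgen : Subgroup.closure ({(⟨x, hxH⟩ : H), ⟨y, hyH⟩} : Set H) = ⊤ := by
    have h1 : ({(⟨x, hxH⟩ : H), ⟨y, hyH⟩} : Set H) = ((↑) : H → G) ⁻¹' ({x, y} : Set G) := by
      ext a
      simp only [Set.mem_insert_iff, Set.mem_singleton_iff, Set.mem_preimage, Subtype.ext_iff]
    rw [h1]
    exact Subgroup.closure_closure_coe_preimage
  have hX : orderOf (⟨x, hxH⟩ : H) = p := by rw [Subgroup.orderOf_mk, hx]
  have hY : orderOf (⟨y, hyH⟩ : H) = p := by rw [Subgroup.orderOf_mk, hy]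
  obtain ⟨w, hw, hw1, hwc, hwr, hws, hwt⟩ := pair_struct (hc x y hx hy) hcycH hX hY hgen
  have hzp : ∀ a : H, a ∈ Subgroup.zpowers (⟨x, hxH⟩ : H) → (a : G) ∈ Subgroup.zpowers x := by
    rintro a ⟨i, rfl⟩
    exact ⟨i, by simp⟩
  refine ⟨w, hzp w hw, fun h => hw1 (Subtype.ext h), ?_, ?_, ?_, ?_⟩
  · obtain ⟨c, hc'⟩ := isConj_iff.mp hwc
    refine isConj_iff.mpr ⟨c, ?_⟩
    have := congrArg Subtype.val hc'
    simpa using this
  · intro k
    have h1 := hwr k
    rwa [← Subgroup.orderOf_coe] at h1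
  · rintro u ⟨m, rfl⟩ hne
    have hne' : (⟨x, hxH⟩ : H) ^ m ≠ w := by
      intro h
      apply hne
      rw [← h]
      simp
    have h1 := hws _ (Subgroup.zpow_mem_zpowers _ m) hne'
    rw [← Subgroup.orderOf_coe] at h1
    simpa using h1
  · intro t ht hk
    obtain ⟨k, hk⟩ := hk
    have hk' : orderOf (⟨t, ht⟩ : H) = p ^ k := by rw [Subgroup.orderOf_mk, hk]
    obtain ⟨v, hv, hvc⟩ := hwt ⟨t, ht⟩ ⟨k, hk'⟩
    refine ⟨v, hzp v hv, ?_⟩
    obtain ⟨c, hc'⟩ := isConj_iff.mp hvc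
    refine isConj_iff.mpr ⟨c, ?_⟩
    have := congrArg Subtype.val hc'
    simpa using this

/-- The centralizer of a nontrivial `p`-element has a normal `p`-complement. -/
theorem npc_data (P : Sylow p G) (hcyc : ∀ S : Sylow p G, IsCyclic (S : Subgroup G)) {t : G} {k : ℕ}
    (ht : orderOf t = p ^ k) (ht1 : t ≠ 1) :
    ∃ O : Subgroup (Subgroup.centralizer ({t} : Set G)), O.Normal ∧ (Nat.card O).Coprime p ∧
      O.index = Nat.card (P : Subgroup G) ∧
      ∀ a b : Subgroup.centralizer ({t} : Set G), a * b * a⁻¹ * b⁻¹ ∈ O := by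
  classical
  have hpp : p.Prime := hp.out
  set C := Subgroup.centralizer ({t} : Set G) with hC
  obtain ⟨S, hS⟩ := (isPGroup_zpowers_of_pow ht).exists_le_sylow
  have htS : t ∈ (S : Subgroup G) := hS (Subgroup.mem_zpowers t)
  have hSab := comm_of_isPGroup hcyc (S : Subgroup G) S.isPGroup'
  have hSC : (S : Subgroup G) ≤ C := by
    intro a ha
    rw [hC, Subgroup.mem_centralizer_singleton_iff]
    exact hSab a ha t htS
  let S₁ : Sylow p C := S.subtype hSC
  have hS₁ : (S₁ : Subgroup C) = (S : Subgroup G).subgroupOf C := Sylow.coe_subtype S hSC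
  have hnorm : Subgroup.normalizer ((S₁ : Subgroup C) : Set C) ≤
      Subgroup.centralizer ((S₁ : Subgroup C) : Set C) := by
    intro n hn
    have hn1 : (n : G) ∈ Subgroup.normalizer ((S : Subgroup G) : Set G) := by
      rw [Subgroup.mem_normalizer_iff]
      intro a
      have hnC : (n : G) ∈ C := n.2
      constructor
      · intro ha
        have hac : a ∈ C := hSC ha
        have h1 : (⟨a, hac⟩ : C) ∈ (S₁ : Subgroup C) := by
          rw [hS₁, Subgroup.mem_subgroupOf]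
          exact ha
        have h2 := (Subgroup.mem_normalizer_iff.mp hn _).1 h1
        rw [hS₁, Subgroup.mem_subgroupOf] at h2
        simpa using h2
      · intro ha
        have hac : (n : G) * a * (n : G)⁻¹ ∈ C := hSC ha
        have hac' : a ∈ C := by
          have e : a = (n : G)⁻¹ * ((n : G) * a * (n : G)⁻¹) * (n : G) := by group
          rw [e]
          exact C.mul_mem (C.mul_mem (C.inv_mem hnC) hac) hnC
        have h1 : n * (⟨a, hac'⟩ : C) * n⁻¹ ∈ (S₁ : Subgroup C) := by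
          rw [hS₁, Subgroup.mem_subgroupOf]
          simpa using ha
        have h2 := (Subgroup.mem_normalizer_iff.mp hn _).2 h1
        rw [hS₁, Subgroup.mem_subgroupOf] at h2
        exact h2
    have hcomm : Commute (n : G) t := by
      have := Subgroup.mem_centralizer_singleton_iff.mp n.2
      exact this
    have h3 := H13.normalizer_centralizes_cyclic S (hcyc S) htS ht1 hcomm hn1
    rw [Subgroup.mem_centralizer_iff]
    intro a ha
    have ha' : (a : G) ∈ (S : Subgroup G) := by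
      rw [SetLike.mem_coe, hS₁, Subgroup.mem_subgroupOf] at ha
      exact ha
    apply Subtype.ext
    exact (Subgroup.mem_centralizer_iff.mp h3 a ha')
  obtain ⟨P₁, O, hOn, hOc⟩ := H01.hasNormalPComplement_of_normalizer_le S₁ hnorm
  refine ⟨O, hOn, ?_, ?_, ?_⟩
  · have hOcard : Nat.card O = (P₁ : Subgroup C).index := hOc.index_eq_card.symm
    rw [hOcard]
    exact ((Nat.Prime.coprime_iff_not_dvd hpp).2 P₁.not_dvd_index).symm
  · have hOidx : O.index = Nat.card (P₁ : Subgroup C) := hOc.symm.index_eq_card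
    rw [hOidx]
    have h1 : Nat.card (P₁ : Subgroup C) = Nat.card (S₁ : Subgroup C) := Nat.card_congr (P₁.equiv S₁).toEquiv
    have h2 : Nat.card (S₁ : Subgroup C) = Nat.card (S : Subgroup G) := by
      rw [hS₁]
      exact Nat.card_congr (Subgroup.subgroupOfEquivOfLe hSC).toEquiv
    have h3 : Nat.card (S : Subgroup G) = Nat.card (P : Subgroup G) := Nat.card_congr (S.equiv P).toEquiv
    rw [h1, h2, h3]
  · intro a b
    haveI := hOn
    have hP₁ab : ∀ c ∈ (P₁ : Subgroup C), ∀ d ∈ (P₁ : Subgroup C), c * d = d * c := by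
      intro c hc d hd
      have hm : IsPGroup p ((P₁ : Subgroup C).map C.subtype) := P₁.isPGroup'.map _
      have := comm_of_isPGroup hcyc _ hm (c : G) ⟨c, hc, rfl⟩ (d : G) ⟨d, hd, rfl⟩
      exact Subtype.ext this
    let φ : C →* C ⧸ O := QuotientGroup.mk' O
    have hdec : ∀ c : C, ∃ s ∈ (P₁ : Subgroup C), φ c = φ s := by
      intro c
      obtain ⟨⟨o, s⟩, hos⟩ := hOc.2 c
      refine ⟨s, s.2, ?_⟩
      rw [← hos]
      have ho : φ o = 1 := (QuotientGroup.eq_one_iff _).2 o.2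
      simp [ho]
    rw [← QuotientGroup.eq_one_iff]
    change φ (a * b * a⁻¹ * b⁻¹) = 1
    obtain ⟨s₁, hs₁, h1⟩ := hdec a
    obtain ⟨s₂, hs₂, h2⟩ := hdec b
    simp only [map_mul, map_inv, h1, h2]
    have h3 : φ s₁ * φ s₂ = φ s₂ * φ s₁ := by
      rw [← map_mul, ← map_mul, hP₁ab s₁ hs₁ s₂ hs₂]
    rw [h3]
    group

end G

end Cfsg.Agent.H08.Mom.Cyc
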