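import Mathlib
import Cfsg.Agent.Lib.H08.Mom.CycBasic
import Cfsg.Agent.Lib.H22.Central

/-!
Counting: cyclic Sylow subgroups and `p`-solvable pairs of elements of order `p`.
-/

set_option autoImplicit false

namespace Cfsg.Agent.H08.Mom.Cyc

open Cfsg Cfsg.Agent.H21 Cfsg.Agent.H22

universe u

variable {G : Type u} [Group G] [Finite G] {p : ℕ} [hp : Fact p.Prime]

open Classical in
/-- The nonidentity powers of `x`. -/
noncomputable def Zs (x : G) : Finset G := Finset.univ.filter (fun w => w ∈ Subgroup.zpowers x ∧ w ≠ 1)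

theorem mem_Zs {x w : G} : w ∈ Zs x ↔ w ∈ Subgroup.zpowers x ∧ w ≠ 1 := by
  classical
  simp [Zs]

theorem Zs_order {x w : G} (hx : orderOf x = p) (hw : w ∈ Zs x) : orderOf w = p := by
  obtain ⟨⟨i, rfl⟩, h1⟩ := mem_Zs.mp hw
  refine orderOf_eq_prime ?_ h1
  change (x ^ i) ^ p = 1
  rw [← zpow_natCast, ← zpow_mul, mul_comm, zpow_mul, zpow_natCast, ← hx, pow_orderOf_eq_one, one_zpow]

theorem Zs_pow_mem {x w : G} (hx : orderOf x = p) (hw : w ∈ Zs x) {k : ℕ} (hk : ¬ p ∣ k) : w ^ k ∈ Zs x := by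
  refine mem_Zs.mpr ⟨Subgroup.pow_mem _ (mem_Zs.mp hw).1 k, ?_⟩
  intro h
  apply hk
  rw [← Zs_order hx hw]
  exact orderOf_dvd_of_pow_eq_one h

theorem Zs_inv_mem {x w : G} (hw : w ∈ Zs x) : w⁻¹ ∈ Zs x :=
  mem_Zs.mpr ⟨Subgroup.inv_mem _ (mem_Zs.mp hw).1, inv_ne_one.mpr (mem_Zs.mp hw).2⟩

theorem Zs_exists_pow {x u v : G} (hx : orderOf x = p) (hu : u ∈ Zs x) (hv : v ∈ Zs x) :
    ∃ k : ℕ, ¬ p ∣ k ∧ v = u ^ k := by
  have huZ := (mem_Zs.mp hu).1
  have hvZ := (mem_Zs.mp hv).1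
  have h1 : (⟨v, hvZ⟩ : Subgroup.zpowers x) ∈ Subgroup.zpowers (⟨u, huZ⟩ : Subgroup.zpowers x) := by
    apply H19.mem_zpowers_of_orderOf_eq_prime (r := p)
    · rw [Subgroup.orderOf_mk, Zs_order hx hu]
    · rw [Subgroup.orderOf_mk, Zs_order hx hv]
  obtain ⟨i, hi⟩ := h1
  have h2 : v = u ^ i := by
    have := congrArg Subtype.val hi
    simpa using this.symm
  have h3 : v ∈ Subgroup.zpowers u := ⟨i, h2.symm⟩
  rw [← mem_powers_iff_mem_zpowers] at h3
  obtain ⟨k, hk⟩ := h3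
  have hk' : u ^ k = v := hk
  refine ⟨k, ?_, hk'.symm⟩
  intro hd
  apply (mem_Zs.mp hv).2
  rw [← Zs_order hx hu] at hd
  obtain ⟨c, rfl⟩ := hd
  rw [← hk', pow_mul, pow_orderOf_eq_one, one_pow]

/-- A power map with exponent prime to `p` is injective on elements of order `p`. -/
theorem pow_inj_of_order {a b : G} (ha : orderOf a = p) (hb : orderOf b = p) {k : ℕ} (hk : ¬ p ∣ k)
    (h : a ^ k = b ^ k) : a = b := by
  have hpp : p.Prime := hp.out
  have hcop : k.Coprime p := ((Nat.Prime.coprime_iff_not_dvd hpp).2 hk).symm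
  obtain ⟨m, hm⟩ := exists_pow_eq_self_of_coprime (x := a) (n := k) (by rwa [ha])
  obtain ⟨l, hl⟩ := exists_pow_eq_self_of_coprime (x := b) (n := k) (by rwa [hb])
  -- the two exponents agree modulo `p`
  have hml : m ≡ l [MOD p] := by
    have h1 : k * m ≡ 1 [MOD p] := by
      have := (pow_eq_pow_iff_modEq (x := a) (n := k * m) (m := 1)).1 (by rw [pow_mul, hm, pow_one])
      rwa [ha] at this
    have h2 : k * l ≡ 1 [MOD p] := by
      have := (pow_eq_pow_iff_modEq (x := b) (n := k * l) (m := 1)).1 (by rw [pow_mul, hl, pow_one])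
      rwa [hb] at this
    exact Nat.ModEq.cancel_left_of_coprime (by rwa [Nat.gcd_comm]) (h1.trans h2.symm)
  have h3 : b ^ m = b ^ l := by
    rw [pow_eq_pow_iff_modEq, hb]
    exact hml
  calc a = (a ^ k) ^ m := hm.symm
    _ = (b ^ k) ^ m := by rw [h]
    _ = (b ^ m) ^ k := by rw [← pow_mul, ← pow_mul, mul_comm]
    _ = (b ^ l) ^ k := by rw [h3]
    _ = (b ^ k) ^ l := by rw [← pow_mul, ← pow_mul, mul_comm]
    _ = b := hl

open Classical in
/-- The number of elements of `Zs x` conjugate to `v`. -/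
noncomputable def cnt (x v : G) : ℕ := ((Zs x).filter (fun w => IsConj w v)).card

theorem cnt_le {x u v : G} (hx : orderOf x = p) (hu : u ∈ Zs x) (hv : v ∈ Zs x) : cnt x u ≤ cnt x v := by
  classical
  obtain ⟨k, hk, rfl⟩ := Zs_exists_pow hx hu hv
  unfold cnt
  refine Finset.card_le_card_of_injOn (fun w => w ^ k) ?_ ?_
  · intro w hw
    have hw' := Finset.mem_filter.mp hw
    refine Finset.mem_filter.mpr ⟨Zs_pow_mem hx hw'.1 hk, ?_⟩
    obtain ⟨c, hc⟩ := isConj_iff.mp hw'.2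
    refine isConj_iff.mpr ⟨c, ?_⟩
    rw [← hc]
    simp
  · intro a ha b hb hab
    exact pow_inj_of_order (Zs_order hx (Finset.mem_filter.mp ha).1) (Zs_order hx (Finset.mem_filter.mp hb).1) hk hab

theorem cnt_eq {x u v : G} (hx : orderOf x = p) (hu : u ∈ Zs x) (hv : v ∈ Zs x) : cnt x u = cnt x v :=
  le_antisymm (cnt_le hx hu hv) (cnt_le hx hv hu)

open Classical in
theorem cnt_inv {x v : G} : ((Zs x).filter (fun w => IsConj w⁻¹ v)).card = cnt x v := by
  classical
  unfold cnt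
  refine Finset.card_bij (fun w _ => w⁻¹) ?_ ?_ ?_
  · intro w hw
    have hw' := Finset.mem_filter.mp hw
    exact Finset.mem_filter.mpr ⟨Zs_inv_mem hw'.1, hw'.2⟩
  · intro a _ b _ h
    exact inv_injective h
  · intro b hb
    have hb' := Finset.mem_filter.mp hb
    refine ⟨b⁻¹, Finset.mem_filter.mpr ⟨Zs_inv_mem hb'.1, by rw [inv_inv]; exact hb'.2⟩, inv_inv b⟩

theorem card_Zs {x : G} (hx : orderOf x = p) : (Zs x).card = p - 1 := by
  classical
  have h1 : (Finset.univ.filter (fun w => w ∈ Subgroup.zpowers x)).card = p := by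
    have : Nat.card (Subgroup.zpowers x) = p := by rw [Nat.card_zpowers, hx]
    rw [← this, Nat.card_eq_fintype_card, Fintype.card_subtype]
  have h2 : Zs x = (Finset.univ.filter (fun w => w ∈ Subgroup.zpowers x)).erase 1 := by
    ext w
    rw [mem_Zs, Finset.mem_erase, Finset.mem_filter]
    simp [and_comm]
  rw [h2, Finset.card_erase_of_mem (Finset.mem_filter.mpr ⟨Finset.mem_univ _, Subgroup.one_mem _⟩), h1]

open Classical in
/-- The elements of order `p` whose product with `u` is `p`-regular. -/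
noncomputable def R (u : G) (p : ℕ) : Finset G := Finset.univ.filter (fun y => orderOf y = p ∧ ¬ p ∣ orderOf (y * u))

theorem mem_R {u y : G} : y ∈ R u p ↔ orderOf y = p ∧ ¬ p ∣ orderOf (y * u) := by
  classical
  simp [R]

open Classical in
/-- The conjugacy class of `v`. -/
noncomputable def D (v : G) : Finset G := Finset.univ.filter (fun y => IsConj y v)

theorem mem_D {v y : G} : y ∈ D v ↔ IsConj y v := by
  classical
  simp [D]

theorem order_of_conj {y v : G} (h : IsConj y v) : orderOf y = orderOf v := by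
  obtain ⟨c, hc⟩ := isConj_iff.mp h
  rw [← hc]
  have := orderOf_injective (MulAut.conj c).toMonoidHom (MulAut.conj c).injective y
  simpa using this.symm

section pairs

variable (hcyc : ∀ S : Sylow p G, IsCyclic (S : Subgroup G))
  (hc : ∀ x y : G, orderOf x = p → orderOf y = p → IsPSolvable p ↥(Subgroup.closure ({x, y} : Set G)))
  {x : G} (hx : orderOf x = p)

include hcyc hc hx

theorem R_exists {y : G} (hy : orderOf y = p) : ∃ w ∈ Zs x, y ∈ R w p := by
  obtain ⟨w, hw, hw1, -, hwr, -, -⟩ := pair_G hcyc hc hx hy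
  refine ⟨w, mem_Zs.mpr ⟨hw, hw1⟩, mem_R.mpr ⟨hy, ?_⟩⟩
  have := hwr 1
  simpa using this

theorem R_unique {y u v : G} (hu : u ∈ Zs x) (hv : v ∈ Zs x) (h1 : y ∈ R u p) (h2 : y ∈ R v p) : u = v := by
  obtain ⟨hy, hyu⟩ := mem_R.mp h1
  obtain ⟨-, hyv⟩ := mem_R.mp h2
  obtain ⟨w, -, -, -, -, hws, -⟩ := pair_G hcyc hc hx hy
  have h3 : u = w := by
    by_contra hne
    exact hyu (hws u (mem_Zs.mp hu).1 hne)
  have h4 : v = w := by
    by_contra hne
    exact hyv (hws v (mem_Zs.mp hv).1 hne)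
  rw [h3, h4]

theorem R_conj {y u : G} (hu : u ∈ Zs x) (h1 : y ∈ R u p) : IsConj y u⁻¹ := by
  obtain ⟨hy, hyu⟩ := mem_R.mp h1
  obtain ⟨w, -, -, hwc, -, hws, -⟩ := pair_G hcyc hc hx hy
  have h3 : u = w := by
    by_contra hne
    exact hyu (hws u (mem_Zs.mp hu).1 hne)
  rwa [h3]

theorem R_pow {y u : G} (hu : u ∈ Zs x) (h1 : y ∈ R u p) (k : ℕ) : ¬ p ∣ orderOf (y ^ k * u ^ k) := by
  obtain ⟨hy, hyu⟩ := mem_R.mp h1
  obtain ⟨w, -, -, -, hwr, hws, -⟩ := pair_G hcyc hc hx hy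
  have h3 : u = w := by
    by_contra hne
    exact hyu (hws u (mem_Zs.mp hu).1 hne)
  rw [h3]
  exact hwr k

theorem card_R_le {u v : G} (hu : u ∈ Zs x) (hv : v ∈ Zs x) : (R u p).card ≤ (R v p).card := by
  classical
  obtain ⟨k, hk, rfl⟩ := Zs_exists_pow hx hu hv
  refine Finset.card_le_card_of_injOn (fun y => y ^ k) ?_ ?_
  · intro y hy
    have hy' : y ∈ R u p := hy
    have hord := (mem_R.mp hy').1
    have hpp : p.Prime := hp.out
    refine mem_R.mpr ⟨?_, R_pow hcyc hc hx hu hy' k⟩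
    have hcop : Nat.Coprime (orderOf y) k := by
      rw [hord]
      exact (Nat.Prime.coprime_iff_not_dvd hpp).2 hk
    rw [hcop.orderOf_pow, hord]
  · intro a ha b hb hab
    exact pow_inj_of_order (mem_R.mp ha).1 (mem_R.mp hb).1 hk hab

theorem card_R_eq {u v : G} (hu : u ∈ Zs x) (hv : v ∈ Zs x) : (R u p).card = (R v p).card :=
  le_antisymm (card_R_le hcyc hc hx hu hv) (card_R_le hcyc hc hx hv hu)

/-- The size of a class in terms of `e` and `r`. -/
theorem card_D {v : G} (hv : v ∈ Zs x) (hx1 : x ∈ Zs x) : (D v).card = cnt x x * (R x p).card := by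
  classical
  have h1 : D v = ((Zs x).filter (fun w => IsConj w⁻¹ v)).biUnion (fun w => R w p) := by
    ext y
    rw [mem_D, Finset.mem_biUnion]
    constructor
    · intro hy
      have hyo : orderOf y = p := by rw [order_of_conj hy, Zs_order hx hv]
      obtain ⟨w, hw, hyw⟩ := R_exists hcyc hc hx hyo
      refine ⟨w, Finset.mem_filter.mpr ⟨hw, ?_⟩, hyw⟩
      exact (R_conj hcyc hc hx hw hyw).symm.trans hy
    · rintro ⟨w, hw, hyw⟩
      have hw' := Finset.mem_filter.mp hw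
      exact (R_conj hcyc hc hx hw'.1 hyw).trans hw'.2
  rw [h1, Finset.card_biUnion]
  · have h2 : ∀ w ∈ (Zs x).filter (fun w => IsConj w⁻¹ v), (R w p).card = (R x p).card := fun w hw =>
      card_R_eq hcyc hc hx (Finset.mem_filter.mp hw).1 hx1
    rw [Finset.sum_congr rfl h2, Finset.sum_const, cnt_inv, smul_eq_mul, cnt_eq hx hv hx1]
  · intro a ha b hb hab
    change Disjoint (R a p) (R b p)
    rw [Finset.disjoint_left]
    intro y h3 h4
    exact hab (R_unique hcyc hc hx (Finset.mem_filter.mp ha).1 (Finset.mem_filter.mp hb).1 h3 h4)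

/-- The number of elements of a class having regular product with `u`. -/
theorem card_reg_eq {u v : G} (hu : u ∈ Zs x) (hv : v ∈ Zs x) (hx1 : x ∈ Zs x) (hcj : IsConj u⁻¹ v) :
    ((D v).filter (fun y => ¬ p ∣ orderOf (y * u))).card = (R x p).card := by
  classical
  rw [← card_R_eq hcyc hc hx hu hx1]
  congr 1
  ext y
  rw [Finset.mem_filter, mem_D, mem_R]
  constructor
  · rintro ⟨hy, hyu⟩
    exact ⟨by rw [order_of_conj hy, Zs_order hx hv], hyu⟩
  · rintro ⟨hy, hyu⟩
    exact ⟨(R_conj hcyc hc hx hu (mem_R.mpr ⟨hy, hyu⟩)).trans hcj, hyu⟩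

theorem card_reg_ne {u v : G} (hu : u ∈ Zs x) (hv : v ∈ Zs x) (hcj : ¬ IsConj u⁻¹ v) :
    ((D v).filter (fun y => ¬ p ∣ orderOf (y * u))).card = 0 := by
  classical
  rw [Finset.card_eq_zero, Finset.filter_eq_empty_iff]
  intro y hy hyu
  have hy' := mem_D.mp hy
  apply hcj
  have hyo : orderOf y = p := by rw [order_of_conj hy', Zs_order hx hv]
  exact (R_conj hcyc hc hx hu (mem_R.mpr ⟨hyo, hyu⟩)).symm.trans hy'

/-- The `p`-part of a singular product `y u` lies in a conjugate of `Zs x`. -/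
theorem part_conj {y u t r : G} (hy : orderOf y = p) (hu : u ∈ Zs x) (htr : t * r = y * u) (hcomm : Commute t r)
    {k : ℕ} (ht : orderOf t = p ^ k) (hr : ¬ p ∣ orderOf r) (hd : p ∣ orderOf (y * u)) :
    ∃ v ∈ Zs x, IsConj t v := by
  obtain ⟨w, -, -, -, -, -, hwt⟩ := pair_G hcyc hc hx hy
  have hmem : t ∈ Subgroup.closure ({x, y} : Set G) := by
    have h1 : t ∈ Subgroup.zpowers (y * u) := pPart_mem_zpowers htr hcomm ht hr
    have h2 : y ∈ Subgroup.closure ({x, y} : Set G) := Subgroup.subset_closure (by simp)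
    have h3 : x ∈ Subgroup.closure ({x, y} : Set G) := Subgroup.subset_closure (by simp)
    have h4 : u ∈ Subgroup.closure ({x, y} : Set G) := (Subgroup.zpowers_le.mpr h3) (mem_Zs.mp hu).1
    exact (Subgroup.zpowers_le.mpr (Subgroup.mul_mem _ h2 h4)) h1
  obtain ⟨v, hv, hvc⟩ := hwt t hmem ⟨k, ht⟩
  have ht1 : t ≠ 1 := by
    rintro rfl
    rw [one_mul] at htr
    rw [htr] at hr
    exact hr hd
  refine ⟨v, mem_Zs.mpr ⟨hv, ?_⟩, hvc⟩
  rintro rfl
  exact ht1 (isConj_one_right.mp hvc.symm)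

end pairs

end Cfsg.Agent.H08.Mom.Cyc
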