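import Mathlib
import Cfsg.Agent.Lib.H08.Mom.Basic
import Cfsg.Agent.Lib.H22.PIndex
import Cfsg.Agent.Lib.H24.FusGroup

/-!
Elementary abelian Sylow subgroups with one class of nonidentity elements, `p`-nilpotent centralizers and
`p`-solvable pairs of elements of order `p`: the moment argument in the principal block.
-/

set_option autoImplicit false

namespace Cfsg.Agent.H08.Mom

open scoped ComplexConjugate
open Cfsg Cfsg.Agent.H21 Cfsg.Agent.H22

universe u

variable {G : Type u} [Group G] [Finite G] {p : ℕ} [hp : Fact p.Prime]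

/-- The value of an irreducible character on a subgroup all of whose nonidentity elements are conjugate. -/
theorem int_value (χ : IrrCharacter G) (P : Subgroup G) {x : G} (hx : x ∈ P) (hx1 : x ≠ 1)
    (hconj : ∀ y ∈ P, y ≠ 1 → ∃ g : G, g * x * g⁻¹ = y) :
    ∃ (z : ℤ) (n : ℕ), χ.1 x = z ∧ (Nat.card P : ℤ) * n = charDegree χ.1 + ((Nat.card P : ℤ) - 1) * z := by
  classical
  haveI : Fintype P := Fintype.ofFinite _
  have hχ := isCharacter_of_irr χ.2
  have hres := isCharacter_restrict P hχ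
  have hone : IsCharacter P (fun _ => (1 : ℂ)) := isCharacter_of_irr isIrrCharacter_one
  obtain ⟨n, hn⟩ := classInner_isCharacter_nat hres hone
  have hq1 : 1 < Nat.card P := by
    haveI : Nontrivial P := ⟨⟨⟨x, hx⟩, 1, fun h => hx1 (congrArg Subtype.val h)⟩⟩
    exact Finite.one_lt_card
  have hcard : ((Finset.univ : Finset P).erase 1).card = Nat.card P - 1 := by
    rw [Finset.card_erase_of_mem (Finset.mem_univ _), Finset.card_univ, Nat.card_eq_fintype_card]
  have hsum : ∑ g : P, χ.1 g = χ.1 1 + ((Nat.card P : ℂ) - 1) * χ.1 x := by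
    rw [← Finset.add_sum_erase _ _ (Finset.mem_univ (1 : P))]
    have h1 : ∀ g ∈ (Finset.univ : Finset P).erase 1, χ.1 g = χ.1 x := by
      intro g hg
      have hg1 : (g : G) ≠ 1 := fun h => (Finset.mem_erase.mp hg).1 (Subtype.ext h)
      obtain ⟨c, hc⟩ := hconj g g.2 hg1
      rw [← hc]
      exact isCharacter_conj hχ x c
    rw [Finset.sum_congr rfl h1, Finset.sum_const, hcard, nsmul_eq_mul]
    congr 2
    rw [Nat.cast_sub hq1.le]
    simp
  have hq0 : (Nat.card P : ℂ) ≠ 0 := by exact_mod_cast (Nat.card_pos (α := P)).ne'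
  have hn2 : χ.1 1 + ((Nat.card P : ℂ) - 1) * χ.1 x = (Nat.card P : ℂ) * n := by
    unfold classInner at hn
    simp only [map_one, mul_one] at hn
    rw [← hsum]
    field_simp at hn
    rw [mul_comm] at hn
    simpa [mul_comm] using hn
  have hdeg : χ.1 1 = (charDegree χ.1 : ℂ) := one_eq_charDegree hχ
  rw [hdeg] at hn2
  have hq1' : ((Nat.card P : ℂ) - 1) ≠ 0 := by
    have : ((Nat.card P : ℂ) - 1) = ((Nat.card P - 1 : ℕ) : ℂ) := by
      rw [Nat.cast_sub hq1.le]
      simp
    rw [this]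
    exact_mod_cast (Nat.sub_pos_of_lt hq1).ne'
  let r : ℚ := ((Nat.card P : ℚ) * n - charDegree χ.1) / ((Nat.card P : ℚ) - 1)
  have hr : ((r : ℚ) : ℂ) = χ.1 x := by
    simp only [r]
    push_cast
    rw [div_eq_iff hq1']
    linear_combination -hn2
  have hint : IsIntegral ℤ ((r : ℚ) : ℂ) := by
    rw [hr]
    exact isCharacter_isIntegral hχ x
  obtain ⟨z, hz⟩ := isInt_of_isIntegral_rat r hint
  have hz' : χ.1 x = z := by
    rw [← hr, hz]
    simp
  refine ⟨z, n, hz', ?_⟩
  rw [hz'] at hn2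
  have : (((Nat.card P : ℤ) * n : ℤ) : ℂ) = ((charDegree χ.1 + ((Nat.card P : ℤ) - 1) * z : ℤ) : ℂ) := by
    push_cast
    rw [hn2]
  exact_mod_cast this

/-- A nontrivial irreducible character of a simple group has degree larger than its value by at least `|P|`. -/
theorem degree_ge [IsSimpleGroup G] (χ : IrrCharacter G) (hχ1 : χ ≠ oneIrr G) (P : Subgroup G) {x : G} (hx : x ∈ P)
    (hx1 : x ≠ 1) (hconj : ∀ y ∈ P, y ≠ 1 → ∃ g : G, g * x * g⁻¹ = y) {z : ℤ} (hz : χ.1 x = z) :
    z + Nat.card P ≤ charDegree χ.1 := by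
  classical
  obtain ⟨z', n, hz', hn⟩ := int_value χ P hx hx1 hconj
  have hzz : z' = z := by
    have : ((z' : ℤ) : ℂ) = (z : ℂ) := by rw [← hz', hz]
    exact_mod_cast this
  subst hzz
  have hχ := isCharacter_of_irr χ.2
  -- `z < d`
  have hle : z' ≤ charDegree χ.1 := by
    have h1 := isCharacter_norm_le hχ x
    rw [hz'] at h1
    have h2 : |(z' : ℝ)| ≤ (charDegree χ.1 : ℝ) := by
      simpa [Complex.norm_intCast] using h1
    have h3 := (abs_le.mp h2).2
    exact_mod_cast h3
  have hne : z' ≠ charDegree χ.1 := by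
    intro he
    have h1 : χ.1 x = χ.1 1 := by
      rw [hz', he, one_eq_charDegree hχ]
      simp
    have hmem : x ∈ charKer χ.1 hχ := h1
    have htop : charKer χ.1 hχ = ⊤ := by
      rcases (charKer_normal χ.1 hχ).eq_bot_or_eq_top with h | h
      · rw [h, Subgroup.mem_bot] at hmem
        exact absurd hmem hx1
      · exact h
    have hall : ∀ g, χ.1 g = χ.1 1 := by
      intro g
      have : g ∈ charKer χ.1 hχ := by rw [htop]; trivial
      exact this
    haveI : Fintype G := Fintype.ofFinite _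
    have hin := classInner_irr χ χ
    rw [if_pos rfl] at hin
    unfold classInner at hin
    have hd : (χ.1 1) * conj (χ.1 1) = 1 := by
      have h2 : ∑ g : G, χ.1 g * conj (χ.1 g) = (Nat.card G : ℂ) * ((χ.1 1) * conj (χ.1 1)) := by
        rw [Finset.sum_congr rfl (fun g _ => by rw [hall g])]
        simp [Finset.card_univ, Nat.card_eq_fintype_card]
      rw [h2] at hin
      have h3 : (Nat.card G : ℂ) ≠ 0 := by exact_mod_cast (Nat.card_pos (α := G)).ne'
      field_simp at hin
      exact hin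
    have hdeg : (χ.1 1) = (charDegree χ.1 : ℂ) := one_eq_charDegree hχ
    rw [hdeg] at hd
    have hd1 : charDegree χ.1 = 1 := by
      have : ((charDegree χ.1 : ℂ)) * conj (charDegree χ.1 : ℂ) = 1 := hd
      rw [Complex.conj_natCast] at this
      have h4 : ((charDegree χ.1 * charDegree χ.1 : ℕ) : ℂ) = ((1 : ℕ) : ℂ) := by
        push_cast
        exact this
      have h5 : charDegree χ.1 * charDegree χ.1 = 1 := by exact_mod_cast h4
      exact Nat.eq_one_of_mul_eq_one_right h5
    apply hχ1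
    apply Subtype.ext
    funext g
    change χ.1 g = 1
    rw [hall g, hdeg, hd1]
    simp
  have hlt : z' < charDegree χ.1 := lt_of_le_of_ne hle hne
  have hdvd : (Nat.card P : ℤ) ∣ (charDegree χ.1 : ℤ) - z' :=
    ⟨n - z', by linear_combination -hn⟩
  have hle2 := Int.le_of_dvd (by omega) hdvd
  omega

theorem sum_eB {B : Set (IrrCharacter G)} [Fintype (IrrCharacter G)] [DecidablePred (· ∈ B)] (f : IrrCharacter G → ℂ) :
    ∑ χ, eB B χ * f χ = ∑ χ ∈ Finset.univ.filter (· ∈ B), f χ := by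
  rw [Finset.sum_filter]
  refine Finset.sum_congr rfl fun χ _ => ?_
  by_cases h : χ ∈ B
  · rw [eB_apply_mem h, if_pos h, one_mul]
  · rw [eB_apply_not_mem h, if_neg h, zero_mul]

/-- The main theorem. -/
theorem main [IsSimpleGroup G] (P : Sylow p G) (hP1 : (P : Subgroup G) ≠ ⊥)
    (hPe : IsElementaryAbelian p (P : Subgroup G))
    (hconj : ∀ x ∈ (P : Subgroup G), ∀ y ∈ (P : Subgroup G), x ≠ 1 → y ≠ 1 → ∃ g : G, g * x * g⁻¹ = y)
    (hb : ∀ x ∈ (P : Subgroup G), orderOf x = p → HasNormalPComplement p ↥(Subgroup.centralizer ({x} : Set G)))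
    (hc : ∀ x y : G, orderOf x = p → orderOf y = p → IsPSolvable p ↥(Subgroup.closure ({x, y} : Set G))) :
    p = 2 := by
  classical
  by_contra hp2
  have hpp : p.Prime := hp.out
  obtain ⟨x, hxP, hx1⟩ := (Subgroup.bot_or_exists_ne_one (P : Subgroup G)).resolve_left hP1
  have horder : ∀ y ∈ (P : Subgroup G), y ≠ 1 → orderOf y = p := fun y hy hy1 =>
    orderOf_eq_prime (hPe.2 y hy) hy1
  have hx : orderOf x = p := horder x hxP hx1
  have hxk : orderOf x = p ^ 1 := by rw [hx, pow_one]
  obtain ⟨M, hM⟩ := exists_pModular hpp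
  haveI : M.IsPrime := hM.2.1.isPrime
  set q := Nat.card (P : Subgroup G) with hq
  have hPcomm : ∀ a ∈ (P : Subgroup G), ∀ b ∈ (P : Subgroup G), a * b = b * a := by
    intro a ha b hb
    have := hPe.1.is_comm.comm ⟨a, ha⟩ ⟨b, hb⟩
    exact congrArg Subtype.val this
  -- all elements of `p`-power order are conjugate to `x`
  have hcu : ∀ u : G, (∃ k : ℕ, orderOf u = p ^ k) → u ≠ 1 → orderOf u = p ∧ ∃ a : G, a * u * a⁻¹ = x := by
    intro u hu hu1
    obtain ⟨k, hk⟩ := hu
    have hup : IsPGroup p (Subgroup.zpowers u) := by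
      rintro ⟨y, i, rfl⟩
      refine ⟨k, Subtype.ext ?_⟩
      change (u ^ i) ^ p ^ k = 1
      rw [← zpow_natCast, ← zpow_mul, mul_comm, zpow_mul, zpow_natCast, ← hk, pow_orderOf_eq_one, one_zpow]
    obtain ⟨g, hg⟩ := H24.exists_conj_le_sylow P hup
    have hu₁ : g * u * g⁻¹ ∈ (P : Subgroup G) := hg ⟨u, Subgroup.mem_zpowers u, rfl⟩
    have hu₁1 : g * u * g⁻¹ ≠ 1 := by
      intro h
      apply hu1
      have e : u = g⁻¹ * (g * u * g⁻¹) * g := by group
      rw [e, h]
      group
    obtain ⟨d, hd⟩ := hconj _ hu₁ _ hxP hu₁1 hx1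
    refine ⟨?_, d * g, ?_⟩
    · have h1 := horder _ hu₁ hu₁1
      have h2 : orderOf (g * u * g⁻¹) = orderOf u := by
        have := orderOf_injective (MulAut.conj g).toMonoidHom (MulAut.conj g).injective u
        simpa using this
      rw [← h2, h1]
    · rw [← hd]
      group
  -- the centralizer
  set C := Subgroup.centralizer ({x} : Set G) with hC
  obtain ⟨P₁, O, hOn, hOc⟩ := hb x hxP hx
  have hOidx : O.index = Nat.card (P₁ : Subgroup C) := hOc.symm.index_eq_card
  have hOcard : Nat.card O = (P₁ : Subgroup C).index := hOc.index_eq_card.symm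
  have hcop : (Nat.card O).Coprime p := by
    rw [hOcard]
    exact ((Nat.Prime.coprime_iff_not_dvd hpp).2 P₁.not_dvd_index).symm
  have hPC : (P : Subgroup G) ≤ C := by
    intro a ha
    rw [hC, Subgroup.mem_centralizer_singleton_iff]
    exact hPcomm a ha x hxP
  have hcardP₁ : Nat.card (P₁ : Subgroup C) = q := by
    have h1 : Nat.card (P₁ : Subgroup C) = Nat.card (P.subtype hPC : Subgroup C) :=
      Nat.card_congr (P₁.equiv (P.subtype hPC)).toEquiv
    rw [h1, Sylow.coe_subtype]
    exact Nat.card_congr (Subgroup.subgroupOfEquivOfLe hPC).toEquiv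
  have hk : ∃ k : ℕ, O.index = p ^ k := by
    rw [hOidx]
    obtain ⟨k, hk⟩ := IsPGroup.iff_card.mp P₁.isPGroup'
    exact ⟨k, hk⟩
  -- values on singular elements
  have hval : ∀ χ : IrrCharacter G, χ ∈ principalBlock M G → ∀ g : G, p ∣ orderOf g → χ.1 g = χ.1 x := by
    intro χ hχ g hg
    obtain ⟨u, y, huy, hcomm, hup, hy⟩ := exists_pPart (p := p) g
    have hu1 : u ≠ 1 := by
      rintro rfl
      rw [one_mul] at huy
      rw [huy] at hy
      exact hy hg
    obtain ⟨-, a, ha⟩ := hcu u hup hu1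
    have hχc := isCharacter_of_irr χ.2
    have e : a * g * a⁻¹ = x * (a * y * a⁻¹) := by
      rw [← ha, ← huy]
      group
    have h1 : χ.1 g = χ.1 (x * (a * y * a⁻¹)) := by
      rw [← e, isCharacter_conj hχc g a]
    have hyC : a * y * a⁻¹ ∈ C := by
      rw [hC, Subgroup.mem_centralizer_singleton_iff, ← ha]
      have : y * u = u * y := hcomm.eq.symm
      calc a * y * a⁻¹ * (a * u * a⁻¹) = a * (y * u) * a⁻¹ := by group
        _ = a * (u * y) * a⁻¹ := by rw [this]
        _ = a * u * a⁻¹ * (a * y * a⁻¹) := by group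
    have hyO : (⟨a * y * a⁻¹, hyC⟩ : C) ∈ O := by
      by_contra hn
      apply hy
      have h2 := dvd_orderOf_of_not_mem hk hn
      rw [Subgroup.orderOf_mk] at h2
      have h3 : orderOf (a * y * a⁻¹) = orderOf y := by
        have := orderOf_injective (MulAut.conj a).toMonoidHom (MulAut.conj a).injective y
        simpa using this
      rwa [h3] at h2
    rw [h1]
    exact principal_mul_core hM hxk hχ O hcop hyO
  -- the norm
  have h1C : ¬ p ∣ orderOf (1 : C) := by
    rw [orderOf_one]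
    exact fun h => hpp.one_lt.ne' (Nat.dvd_one.mp h)
  have hnorm : ∑ χ : IrrCharacter G, eB (principalBlock M G) χ * (χ.1 x * conj (χ.1 x)) = (q : ℂ) := by
    have h1 := principal_section_norm hM hxk (1 : C) h1C
    simp only [OneMemClass.coe_one, mul_one] at h1
    rw [h1]
    have h2 := sum_degree_sq_of_normal O (principalBlock M C)
      (fun χ => by rw [principal_eq_of_npc hM O hcop hk]; rfl)
    rw [h2, hOidx, hcardP₁]
  -- orthogonality
  have horth : ∀ g : G, ¬ p ∣ orderOf g →
      ∑ χ : IrrCharacter G, eB (principalBlock M G) χ * (χ.1 g * conj (χ.1 x)) = 0 := by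
    intro g hg
    have h1 : IsPPart p x x := ⟨1, mul_one x, Commute.one_right x, ⟨1, hxk⟩, by
      rw [orderOf_one]
      exact fun h => hpp.one_lt.ne' (Nat.dvd_one.mp h)⟩
    have h2 : IsPPart p g 1 := ⟨g, one_mul g, Commute.one_left g, ⟨0, by simp⟩, hg⟩
    have h3 : ¬ IsConj x 1 := fun h => hx1 (isConj_one_right.mp h.symm)
    exact block_orth_sections hM h1 h2 h3 principalBlock_isBlock
  -- integer values
  have hzex : ∀ χ : IrrCharacter G, ∃ z : ℤ, χ.1 x = z := fun χ => by
    obtain ⟨z, _, hz, _⟩ := int_value χ (P : Subgroup G) hxP hx1 (fun y hy hy1 => hconj x hxP y hy hx1 hy1)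
    exact ⟨z, hz⟩
  choose z hz using hzex
  let deg : IrrCharacter G → ℕ := fun χ => charDegree χ.1
  have hdeg : ∀ χ : IrrCharacter G, χ.1 1 = (deg χ : ℂ) := fun χ => one_eq_charDegree (isCharacter_of_irr χ.2)
  have hdegpos : ∀ χ : IrrCharacter G, 0 < deg χ := fun χ => irr_charDegree_pos χ.2
  let S : Finset (IrrCharacter G) := Finset.univ.filter (· ∈ principalBlock M G)
  have h1S : oneIrr G ∈ S := Finset.mem_filter.mpr ⟨Finset.mem_univ _, oneIrr_mem_principal⟩
  have hz1 : z (oneIrr G) = 1 := by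
    have h1 := hz (oneIrr G)
    have h2 : (oneIrr G).1 x = 1 := rfl
    rw [h2] at h1
    exact_mod_cast h1.symm
  have hd1 : deg (oneIrr G) = 1 := by
    have h1 := hdeg (oneIrr G)
    have h2 : (oneIrr G).1 1 = 1 := rfl
    rw [h2] at h1
    exact_mod_cast h1.symm
  have hsq : ∑ χ ∈ S, (z χ) ^ 2 = (q : ℤ) := by
    have h1 : ∑ χ ∈ S, ((z χ : ℂ)) ^ 2 = (q : ℂ) := by
      rw [← hnorm, sum_eB]
      refine Finset.sum_congr rfl fun χ _ => ?_
      rw [hz χ, map_intCast]
      ring
    exact_mod_cast h1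
  have h1G : ¬ p ∣ orderOf (1 : G) := by
    rw [orderOf_one]
    exact fun h => hpp.one_lt.ne' (Nat.dvd_one.mp h)
  have horth1 : ∑ χ ∈ S, z χ * (deg χ : ℤ) = 0 := by
    have h1 := horth 1 h1G
    rw [sum_eB] at h1
    have h2 : ∑ χ ∈ S, ((z χ * (deg χ : ℤ) : ℤ) : ℂ) = 0 := by
      rw [← h1]
      refine Finset.sum_congr rfl fun χ _ => ?_
      rw [hdeg χ, hz χ, map_intCast]
      push_cast
      ring
    exact_mod_cast h2
  have hbig : ∀ χ ∈ S, χ ≠ oneIrr G → z χ + q ≤ deg χ := fun χ _ hne =>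
    degree_ge χ hne (P : Subgroup G) hxP hx1 (fun y hy hy1 => hconj x hxP y hy hx1 hy1) (hz χ)
  have hnum := numeric S z deg (oneIrr G) h1S q hz1 hd1 (fun χ _ => hdegpos χ) hsq horth1 hbig
  -- the pairs
  have hsing : ∀ k : G, orderOf k = p → ¬ p ∣ orderOf (k * x) → p ∣ orderOf (k * k * x) := by
    intro k hk hreg
    let H : Subgroup G := Subgroup.closure ({x, k} : Set G)
    have hxH : x ∈ H := Subgroup.subset_closure (by simp)
    have hkH : k ∈ H := Subgroup.subset_closure (by simp)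
    have hab : ∀ T : Subgroup H, IsPGroup p T → ∀ a ∈ T, ∀ b ∈ T, a * b = b * a := by
      intro T hT a ha b hb
      have hTm : IsPGroup p (T.map H.subtype) := hT.map _
      obtain ⟨g, hg⟩ := H24.exists_conj_le_sylow P hTm
      have h1 : g * (a : G) * g⁻¹ ∈ (P : Subgroup G) := hg ⟨a, ⟨a, ha, rfl⟩, rfl⟩
      have h2 : g * (b : G) * g⁻¹ ∈ (P : Subgroup G) := hg ⟨b, ⟨b, hb, rfl⟩, rfl⟩
      have h3 := hPcomm _ h1 _ h2
      apply Subtype.ext
      have e1 : g * (a : G) * g⁻¹ * (g * (b : G) * g⁻¹) = g * ((a : G) * b) * g⁻¹ := by group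
      have e2 : g * (b : G) * g⁻¹ * (g * (a : G) * g⁻¹) = g * ((b : G) * a) * g⁻¹ := by group
      rw [e1, e2] at h3
      exact mul_left_cancel (mul_right_cancel h3)
    have hSp : ∀ s ∈ ((↑) : H → G) ⁻¹' ({x, k} : Set G), ∃ n : ℕ, s ^ p ^ n = 1 := by
      intro s hs
      refine ⟨1, Subtype.ext ?_⟩
      rw [pow_one]
      rcases hs with hs | hs
      · change (s : G) = x at hs
        change (s : G) ^ p = 1
        rw [hs, ← hx, pow_orderOf_eq_one]
      · change (s : G) = k at hs
        change (s : G) ^ p = 1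
        rw [hs, ← hk, pow_orderOf_eq_one]
    have hq' : IsPGroup p (H ⧸ pPrimeCore p H) :=
      isPGroup_quot (hc x k hx hk) hab _ (Subgroup.closure_closure_coe_preimage) hSp
    have hk' : orderOf (⟨k, hkH⟩ : H) = p := by rw [Subgroup.orderOf_mk, hk]
    have hreg' : ¬ p ∣ orderOf ((⟨k, hkH⟩ : H) * ⟨x, hxH⟩) := by
      have e : orderOf ((⟨k, hkH⟩ : H) * ⟨x, hxH⟩) = orderOf (k * x) :=
        Subgroup.orderOf_mk (H := H) (k * x) (H.mul_mem hkH hxH)
      rwa [e]
    have h1 := singular_of_regular hq' hk' hreg'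
    have e : orderOf ((⟨k, hkH⟩ : H) * ⟨k, hkH⟩ * ⟨x, hxH⟩) = orderOf (k * k * x) :=
      Subgroup.orderOf_mk (H := H) (k * k * x) (H.mul_mem (H.mul_mem hkH hkH) hxH)
    rwa [e] at h1
  have hordc : ∀ k : G, IsConj k x → orderOf k = p := by
    intro k hk
    obtain ⟨c, hc'⟩ := isConj_iff.mp hk
    have h2 : orderOf (c * k * c⁻¹) = orderOf k := by
      have := orderOf_injective (MulAut.conj c).toMonoidHom (MulAut.conj c).injective k
      simpa using this
    rw [← h2, hc', hx]
  -- the sums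
  have hsplit : ∀ k : G, ∑ χ : IrrCharacter G, eB (principalBlock M G) χ * (χ.1 (k * x) * conj (χ.1 x)) =
      if p ∣ orderOf (k * x) then (q : ℂ) else 0 := by
    intro k
    split_ifs with h
    · rw [← hnorm]
      refine Finset.sum_congr rfl fun χ _ => ?_
      by_cases hχ : χ ∈ principalBlock M G
      · rw [hval χ hχ _ h]
      · rw [eB_apply_not_mem hχ, zero_mul, zero_mul]
    · exact horth _ h
  let D : Finset G := Finset.univ.filter (fun k => IsConj k x)
  let Sg : Finset G := D.filter (fun k => p ∣ orderOf (k * x))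
  let R : Finset G := D.filter (fun k => ¬ p ∣ orderOf (k * x))
  have hDcard : (D.card : ℂ) = (C.index : ℂ) := by
    have h1 := card_isConj_eq_index x
    rw [Nat.card_eq_fintype_card, Fintype.card_subtype] at h1
    rw [← hC] at h1
    exact_mod_cast h1
  have hkey : (q : ℂ) * (Sg.card : ℂ) = (D.card : ℂ) * ∑ χ ∈ S, ((z χ : ℂ) ^ 3 / (deg χ : ℂ)) := by
    have h1 : ∑ k : G, classIndicator x k * (∑ χ : IrrCharacter G,
        eB (principalBlock M G) χ * (χ.1 (k * x) * conj (χ.1 x))) = (q : ℂ) * (Sg.card : ℂ) := by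
      simp only [hsplit]
      have h2 : ∀ k : G, classIndicator x k * (if p ∣ orderOf (k * x) then (q : ℂ) else 0) =
          if k ∈ Sg then (q : ℂ) else 0 := by
        intro k
        have hmem : k ∈ Sg ↔ IsConj k x ∧ p ∣ orderOf (k * x) := by
          simp only [Sg, D, Finset.mem_filter, Finset.mem_univ, true_and]
        by_cases hk : IsConj k x
        · have h3 : classIndicator x k = 1 := if_pos hk
          rw [h3, one_mul]
          by_cases hd : p ∣ orderOf (k * x)
          · rw [if_pos hd, if_pos (hmem.mpr ⟨hk, hd⟩)]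
          · rw [if_neg hd, if_neg (fun h => hd (hmem.mp h).2)]
        · have h3 : classIndicator x k = 0 := if_neg hk
          rw [h3, zero_mul, if_neg (fun h => hk (hmem.mp h).1)]
      simp only [h2]
      rw [Finset.sum_ite_mem, Finset.univ_inter, Finset.sum_const, nsmul_eq_mul, mul_comm]
    rw [← h1]
    simp only [Finset.mul_sum]
    rw [Finset.sum_comm]
    have h4 : ∀ χ : IrrCharacter G, ∑ k : G, classIndicator x k *
        (eB (principalBlock M G) χ * (χ.1 (k * x) * conj (χ.1 x))) =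
        eB (principalBlock M G) χ * (conj (χ.1 x) * (cc x χ * χ.1 x)) := by
      intro χ
      have h5 := sum_class_mul_char (classIndicator x) (classIndicator_isClass x) χ x
      rw [om_classIndicator] at h5
      rw [← h5, Finset.mul_sum, Finset.mul_sum]
      refine Finset.sum_congr rfl fun k _ => ?_
      ring
    simp only [h4]
    rw [sum_eB]
    refine Finset.sum_congr rfl fun χ _ => ?_
    unfold cc centralChar
    rw [hz χ, map_intCast, hdeg χ, hDcard, ← hC]
    have hd0 : (deg χ : ℂ) ≠ 0 := by exact_mod_cast (hdegpos χ).ne'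
    field_simp
  have hreal : (q : ℝ) * (Sg.card : ℝ) = (D.card : ℝ) * ∑ χ ∈ S, ((z χ : ℝ) ^ 3 / (deg χ : ℝ)) := by
    have : (((q : ℝ) * (Sg.card : ℝ) : ℝ) : ℂ) =
        (((D.card : ℝ) * ∑ χ ∈ S, ((z χ : ℝ) ^ 3 / (deg χ : ℝ)) : ℝ) : ℂ) := by
      push_cast
      exact hkey
    exact_mod_cast this
  -- the injection
  have hDsplit : Sg.card + R.card = D.card := Finset.card_filter_add_card_filter_not _
  have hinj : R.card ≤ Sg.card := by
    refine Finset.card_le_card_of_injOn (fun k => k * k) ?_ ?_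
    · intro k hk
      have hk' := Finset.mem_filter.mp hk
      have hkc : IsConj k x := (Finset.mem_filter.mp hk'.1).2
      have hkp := hordc k hkc
      have hcop : Nat.Coprime (orderOf k) 2 := by
        rw [hkp]
        exact (Nat.coprime_primes hpp Nat.prime_two).2 hp2
      have hk2 : orderOf (k * k) = p := by
        rw [← pow_two, hcop.orderOf_pow, hkp]
      have hk21 : k * k ≠ 1 := by
        intro h
        rw [h, orderOf_one] at hk2
        exact hpp.one_lt.ne hk2
      obtain ⟨-, a, ha⟩ := hcu (k * k) ⟨1, by rw [hk2, pow_one]⟩ hk21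
      refine Finset.mem_filter.mpr ⟨Finset.mem_filter.mpr ⟨Finset.mem_univ _, isConj_iff.mpr ⟨a, ha⟩⟩, ?_⟩
      exact hsing k hkp hk'.2
    · intro k hk l hl hkl
      have hk' := Finset.mem_filter.mp hk
      have hl' := Finset.mem_filter.mp hl
      have hkp := hordc k (Finset.mem_filter.mp hk'.1).2
      have hlp := hordc l (Finset.mem_filter.mp hl'.1).2
      obtain ⟨m, hm⟩ := hpp.odd_of_ne_two hp2
      have hpow : ∀ y : G, orderOf y = p → (y * y) ^ (m + 1) = y := by
        intro y hy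
        have e : (y * y) ^ (m + 1) = y ^ p * y := by
          rw [← pow_two, ← pow_mul, hm, ← pow_succ]
          congr 1
        rw [e, ← hy, pow_orderOf_eq_one, one_mul]
      have hkl' : k * k = l * l := hkl
      rw [← hpow k hkp, hkl', hpow l hlp]
  have hxD : x ∈ D := Finset.mem_filter.mpr ⟨Finset.mem_univ _, IsConj.refl x⟩
  have hDpos : (0 : ℝ) < D.card := by exact_mod_cast Finset.card_pos.mpr ⟨x, hxD⟩
  have h2Sg : (D.card : ℝ) ≤ 2 * (Sg.card : ℝ) := by
    have : D.card ≤ 2 * Sg.card := by omega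
    exact_mod_cast this
  have hq0 : (0 : ℝ) ≤ q := Nat.cast_nonneg _
  have hfinal : (q : ℝ) * (D.card : ℝ) < (q : ℝ) * (D.card : ℝ) := by
    calc (q : ℝ) * (D.card : ℝ) ≤ (q : ℝ) * (2 * (Sg.card : ℝ)) := mul_le_mul_of_nonneg_left h2Sg hq0
      _ = 2 * ((q : ℝ) * (Sg.card : ℝ)) := by ring
      _ = (D.card : ℝ) * (2 * ∑ χ ∈ S, ((z χ : ℝ) ^ 3 / (deg χ : ℝ))) := by rw [hreal]; ring
      _ < (D.card : ℝ) * (q : ℝ) := mul_lt_mul_of_pos_left hnum hDpos
      _ = (q : ℝ) * (D.card : ℝ) := by ring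
  exact lt_irrefl _ hfinal

end Cfsg.Agent.H08.Mom
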