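import Mathlib
import Cfsg.Agent.Lib.H08.Mom.CycCount
import Cfsg.Agent.Lib.H08.Mom.Main

/-!
Cyclic Sylow subgroups and `p`-solvable pairs of elements of order `p`: identities in the principal block.
-/

set_option autoImplicit false

namespace Cfsg.Agent.H08.Mom.Cyc

open scoped ComplexConjugate
open Cfsg Cfsg.Agent.H21 Cfsg.Agent.H22

universe u

variable {G : Type u} [Group G] [Finite G] {p : ℕ} [hp : Fact p.Prime] {M : Ideal AlgInt} [M.IsPrime]

section sections

variable (hM : IsPModular p M) (P : Sylow p G) (hcyc : ∀ S : Sylow p G, IsCyclic (S : Subgroup G))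

include hM P hcyc

theorem val_eq {t r : G} {k : ℕ} (ht : orderOf t = p ^ k) (ht1 : t ≠ 1) (hcomm : Commute t r)
    (hr : ¬ p ∣ orderOf r) {χ : IrrCharacter G} (hχ : χ ∈ principalBlock M G) : χ.1 (t * r) = χ.1 t := by
  obtain ⟨O, hOn, hcop, hidx, -⟩ := npc_data P hcyc ht ht1
  have hk' : ∃ k : ℕ, O.index = p ^ k := by
    rw [hidx]
    obtain ⟨k, hk⟩ := IsPGroup.iff_card.mp P.isPGroup'
    exact ⟨k, hk⟩
  have hrC : r ∈ Subgroup.centralizer ({t} : Set G) := Subgroup.mem_centralizer_singleton_iff.mpr hcomm.eq.symm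
  have hrO : (⟨r, hrC⟩ : Subgroup.centralizer ({t} : Set G)) ∈ O := by
    by_contra hn
    have h2 := dvd_orderOf_of_not_mem hk' hn
    rw [Subgroup.orderOf_mk] at h2
    exact hr h2
  exact principal_mul_core hM ht hχ O hcop hrO

theorem norm_eq {t : G} {k : ℕ} (ht : orderOf t = p ^ k) (ht1 : t ≠ 1) :
    ∑ χ : IrrCharacter G, eB (principalBlock M G) χ * (χ.1 t * conj (χ.1 t)) = (Nat.card (P : Subgroup G) : ℂ) := by
  obtain ⟨O, hOn, hcop, hidx, -⟩ := npc_data P hcyc ht ht1
  have hk' : ∃ k : ℕ, O.index = p ^ k := by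
    rw [hidx]
    obtain ⟨k, hk⟩ := IsPGroup.iff_card.mp P.isPGroup'
    exact ⟨k, hk⟩
  have hpp : p.Prime := hp.out
  have h1C : ¬ p ∣ orderOf (1 : Subgroup.centralizer ({t} : Set G)) := by
    rw [orderOf_one]
    exact fun h => hpp.one_lt.ne' (Nat.dvd_one.mp h)
  have h1 := principal_section_norm hM ht (1 : Subgroup.centralizer ({t} : Set G)) h1C
  simp only [OneMemClass.coe_one, mul_one] at h1
  rw [h1]
  have h2 := sum_degree_sq_of_normal O (principalBlock M (Subgroup.centralizer ({t} : Set G)))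
    (fun χ => by rw [principal_eq_of_npc hM O hcop hk']; rfl)
  rw [h2, hidx]

theorem inner_conj {g t r s : G} (htr : t * r = g) (hcomm : Commute t r) {k l : ℕ} (ht : orderOf t = p ^ k)
    (hr : ¬ p ∣ orderOf r) (hs : orderOf s = p ^ l) (hs1 : s ≠ 1) (hcj : IsConj t s) :
    ∑ χ : IrrCharacter G, eB (principalBlock M G) χ * (χ.1 g * conj (χ.1 s)) = (Nat.card (P : Subgroup G) : ℂ) := by
  have ht1 : t ≠ 1 := by
    rintro rfl
    exact hs1 (isConj_one_right.mp hcj)
  rw [← norm_eq hM P hcyc hs hs1]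
  refine Finset.sum_congr rfl fun χ _ => ?_
  by_cases hχ : χ ∈ principalBlock M G
  · have h1 : χ.1 g = χ.1 t := by
      rw [← htr]
      exact val_eq hM P hcyc ht ht1 hcomm hr hχ
    obtain ⟨c, hc⟩ := isConj_iff.mp hcj
    have h2 : χ.1 t = χ.1 s := by
      rw [← hc]
      exact (isCharacter_conj (isCharacter_of_irr χ.2) t c).symm
    rw [h1, h2]
  · rw [eB_apply_not_mem hχ, zero_mul, zero_mul]

omit P hcyc in
theorem inner_not {g t r s : G} (htr : t * r = g) (hcomm : Commute t r) {k l : ℕ} (ht : orderOf t = p ^ k)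
    (hr : ¬ p ∣ orderOf r) (hs : orderOf s = p ^ l) (hcj : ¬ IsConj t s) :
    ∑ χ : IrrCharacter G, eB (principalBlock M G) χ * (χ.1 g * conj (χ.1 s)) = 0 := by
  have hpp : p.Prime := hp.out
  have h1 : IsPPart p s s := ⟨1, mul_one s, Commute.one_right s, ⟨l, hs⟩, by
    rw [orderOf_one]
    exact fun h => hpp.one_lt.ne' (Nat.dvd_one.mp h)⟩
  have h2 : IsPPart p g t := ⟨r, htr, hcomm, ⟨k, ht⟩, hr⟩
  exact block_orth_sections hM h1 h2 (fun h => hcj h.symm) principalBlock_isBlock

end sections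

/-- The sum of the values over the nonidentity powers of `x`. -/
noncomputable def A (x : G) (χ : IrrCharacter G) : ℂ := ∑ w ∈ Zs x, χ.1 w

theorem A_conj (x : G) (χ : IrrCharacter G) : ∑ w ∈ Zs x, conj (χ.1 w) = A x χ := by
  classical
  unfold A
  have h1 : ∀ w ∈ Zs x, conj (χ.1 w) = χ.1 w⁻¹ := fun w _ => (isCharacter_inv (isCharacter_of_irr χ.2) w).symm
  rw [Finset.sum_congr rfl h1]
  refine Finset.sum_bij (fun w _ => w⁻¹) (fun w hw => Zs_inv_mem hw) (fun a _ b _ h => inv_injective h) ?_ ?_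
  · intro b hb
    exact ⟨b⁻¹, Zs_inv_mem hb, inv_inv b⟩
  · intro a _
    rfl

/-- The function `L`. -/
noncomputable def Lf (M : Ideal AlgInt) (x g : G) : ℂ :=
  ∑ χ : IrrCharacter G, eB (principalBlock M G) χ * (A x χ * χ.1 g)

theorem Lf_eq (x g : G) :
    Lf M x g = ∑ w ∈ Zs x, ∑ χ : IrrCharacter G, eB (principalBlock M G) χ * (χ.1 g * conj (χ.1 w)) := by
  unfold Lf
  rw [Finset.sum_comm]
  refine Finset.sum_congr rfl fun χ _ => ?_
  rw [← A_conj, Finset.sum_mul, Finset.mul_sum]
  refine Finset.sum_congr rfl fun w _ => ?_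
  ring

section L

variable (hM : IsPModular p M) (P : Sylow p G) (hcyc : ∀ S : Sylow p G, IsCyclic (S : Subgroup G))
  {x : G} (hx : orderOf x = p)

include hM hx

omit [Finite G] [M.IsPrime] in
theorem Zs_pow_order [Finite G] {w : G} (hw : w ∈ Zs x) : orderOf w = p ^ 1 := by
  rw [pow_one]
  exact Zs_order hx hw

theorem Lf_reg {g : G} (hg : ¬ p ∣ orderOf g) : Lf M x g = 0 := by
  rw [Lf_eq]
  refine Finset.sum_eq_zero fun w hw => ?_
  have hw1 : w ≠ 1 := (mem_Zs.mp hw).2
  have ho : orderOf (1 : G) = p ^ 0 := by simp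
  refine inner_not hM (t := 1) (r := g) (one_mul g) (Commute.one_left g) ho hg (Zs_pow_order hM hx hw) ?_
  intro h
  exact hw1 (isConj_one_right.mp h)

include P hcyc

theorem Lf_sing {g t r v : G} (htr : t * r = g) (hcomm : Commute t r) {k : ℕ} (ht : orderOf t = p ^ k)
    (hr : ¬ p ∣ orderOf r) (hv : v ∈ Zs x) (hcj : IsConj t v) (hx1 : x ∈ Zs x) :
    Lf M x g = (Nat.card (P : Subgroup G) : ℂ) * (cnt x x : ℂ) := by
  classical
  rw [Lf_eq]
  have h1 : ∀ w ∈ Zs x, ∑ χ : IrrCharacter G, eB (principalBlock M G) χ * (χ.1 g * conj (χ.1 w)) =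
      if IsConj w v then (Nat.card (P : Subgroup G) : ℂ) else 0 := by
    intro w hw
    split_ifs with h
    · exact inner_conj hM P hcyc htr hcomm ht hr (Zs_pow_order hM hx hw) (mem_Zs.mp hw).2 (hcj.trans h.symm)
    · exact inner_not hM htr hcomm ht hr (Zs_pow_order hM hx hw) (fun h' => h (h'.symm.trans hcj))
  rw [Finset.sum_congr rfl h1, Finset.sum_ite, Finset.sum_const_zero, add_zero, Finset.sum_const, nsmul_eq_mul]
  rw [mul_comm, cnt_eq hx hx1 hv]
  rfl

end L

theorem char_ne_zero (χ : IrrCharacter G) : χ.1 1 ≠ 0 := by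
  rw [one_eq_charDegree (isCharacter_of_irr χ.2)]
  exact_mod_cast (irr_charDegree_pos χ.2).ne'

section moment

variable (hM : IsPModular p M) (P : Sylow p G) (hcyc : ∀ S : Sylow p G, IsCyclic (S : Subgroup G))
  (hc : ∀ x y : G, orderOf x = p → orderOf y = p → IsPSolvable p ↥(Subgroup.closure ({x, y} : Set G)))
  {x : G} (hx : orderOf x = p)

include hM P hcyc hc hx

/-- The moment identity. -/
theorem moment_eq {u v : G} (hu : u ∈ Zs x) (hv : v ∈ Zs x) (hx1 : x ∈ Zs x) :
    ((D v).card : ℂ) * ∑ χ : IrrCharacter G, eB (principalBlock M G) χ * (A x χ * χ.1 u * χ.1 v / χ.1 1) =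
      (Nat.card (P : Subgroup G) : ℂ) * (cnt x x : ℂ) *
        (((D v).card : ℂ) - (((D v).filter (fun y => ¬ p ∣ orderOf (y * u))).card : ℂ)) := by
  classical
  have hvo : orderOf v = p := Zs_order hx hv
  -- the sum over the class
  have h1 : ∑ y : G, classIndicator v y * Lf M x (y * u) =
      (Nat.card (P : Subgroup G) : ℂ) * (cnt x x : ℂ) *
        (((D v).card : ℂ) - (((D v).filter (fun y => ¬ p ∣ orderOf (y * u))).card : ℂ)) := by
    have h2 : ∀ y : G, classIndicator v y * Lf M x (y * u) =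
        if y ∈ (D v).filter (fun y => p ∣ orderOf (y * u)) then
          (Nat.card (P : Subgroup G) : ℂ) * (cnt x x : ℂ) else 0 := by
      intro y
      by_cases hy : IsConj y v
      · have h3 : classIndicator v y = 1 := if_pos hy
        rw [h3, one_mul]
        have hyo : orderOf y = p := by rw [order_of_conj hy, hvo]
        by_cases hd : p ∣ orderOf (y * u)
        · have hmem : y ∈ (D v).filter (fun y => p ∣ orderOf (y * u)) :=
            Finset.mem_filter.mpr ⟨mem_D.mpr hy, hd⟩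
          rw [if_pos hmem]
          obtain ⟨t, r, htr, hcomm, ⟨k, ht⟩, hr⟩ := exists_pPart (p := p) (y * u)
          obtain ⟨v', hv', hcj⟩ := part_conj hcyc hc hx hyo hu htr hcomm ht hr hd
          exact Lf_sing hM P hcyc hx htr hcomm ht hr hv' hcj hx1
        · have hmem : y ∉ (D v).filter (fun y => p ∣ orderOf (y * u)) :=
            fun h => hd (Finset.mem_filter.mp h).2
          rw [if_neg hmem]
          exact Lf_reg hM hx hd
      · have h3 : classIndicator v y = 0 := if_neg hy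
        have hmem : y ∉ (D v).filter (fun y => p ∣ orderOf (y * u)) :=
          fun h => hy (mem_D.mp (Finset.mem_filter.mp h).1)
        rw [h3, zero_mul, if_neg hmem]
    simp only [h2]
    rw [Finset.sum_ite_mem, Finset.univ_inter, Finset.sum_const, nsmul_eq_mul, mul_comm]
    have h4 : ((D v).filter (fun y => p ∣ orderOf (y * u))).card + ((D v).filter (fun y => ¬ p ∣ orderOf (y * u))).card =
        (D v).card := Finset.card_filter_add_card_filter_not _
    rw [← h4]
    push_cast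
    ring
  rw [← h1]
  unfold Lf
  simp only [Finset.mul_sum]
  rw [Finset.sum_comm]
  refine Finset.sum_congr rfl fun χ _ => ?_
  have h5 := sum_class_mul_char (classIndicator v) (classIndicator_isClass v) χ u
  rw [om_classIndicator] at h5
  have h6 : ∑ y : G, classIndicator v y * (eB (principalBlock M G) χ * (A x χ * χ.1 (y * u))) =
      eB (principalBlock M G) χ * (A x χ * (cc v χ * χ.1 u)) := by
    rw [← h5, Finset.mul_sum, Finset.mul_sum]
    refine Finset.sum_congr rfl fun k _ => ?_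
    ring
  rw [h6]
  unfold cc centralChar
  have hDcard : ((D v).card : ℂ) = ((Subgroup.centralizer ({v} : Set G)).index : ℂ) := by
    have h7 := card_isConj_eq_index v
    rw [Nat.card_eq_fintype_card, Fintype.card_subtype] at h7
    rw [← h7]
    rfl
  rw [hDcard]
  have hd0 := char_ne_zero χ
  field_simp

/-- The fundamental identity. -/
theorem key_eq {u v : G} (hu : u ∈ Zs x) (hv : v ∈ Zs x) (hx1 : x ∈ Zs x) :
    ∑ χ : IrrCharacter G, eB (principalBlock M G) χ * ((A x χ + χ.1 1) / χ.1 1 * (χ.1 u * conj (χ.1 v))) =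
      (Nat.card (P : Subgroup G) : ℂ) * (cnt x x : ℂ) := by
  classical
  have hv' : v⁻¹ ∈ Zs x := Zs_inv_mem hv
  have hm := moment_eq hM P hcyc hc hx hu hv' hx1
  have hD := card_D hcyc hc hx hv' hx1
  have hDpos : 0 < (D v⁻¹).card := Finset.card_pos.mpr ⟨v⁻¹, mem_D.mpr (IsConj.refl _)⟩
  have hD0 : ((D v⁻¹).card : ℂ) ≠ 0 := by exact_mod_cast hDpos.ne'
  set B := ∑ χ : IrrCharacter G, eB (principalBlock M G) χ * (A x χ * χ.1 u * χ.1 v⁻¹ / χ.1 1) with hB
  have hsplit : ∑ χ : IrrCharacter G, eB (principalBlock M G) χ * ((A x χ + χ.1 1) / χ.1 1 * (χ.1 u * conj (χ.1 v))) =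
      B + ∑ χ : IrrCharacter G, eB (principalBlock M G) χ * (χ.1 u * conj (χ.1 v)) := by
    rw [hB, ← Finset.sum_add_distrib]
    refine Finset.sum_congr rfl fun χ _ => ?_
    have hd0 := char_ne_zero χ
    rw [isCharacter_inv (isCharacter_of_irr χ.2) v]
    field_simp
  rw [hsplit]
  have hpp : p.Prime := hp.out
  have hr1 : ¬ p ∣ orderOf (1 : G) := by
    rw [orderOf_one]
    exact fun h => hpp.one_lt.ne' (Nat.dvd_one.mp h)
  have huk : orderOf u = p ^ 1 := Zs_pow_order hM hx hu
  have hvk : orderOf v = p ^ 1 := Zs_pow_order hM hx hv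
  by_cases hcj : IsConj u v
  · have hcj' : IsConj u⁻¹ v⁻¹ := by
      obtain ⟨c, hc'⟩ := isConj_iff.mp hcj
      refine isConj_iff.mpr ⟨c, ?_⟩
      rw [← hc']
      group
    have hreg := card_reg_eq hcyc hc hx hu hv' hx1 hcj'
    rw [hreg] at hm
    have hin := inner_conj hM P hcyc (g := u) (t := u) (r := 1) (mul_one u) (Commute.one_right u) huk hr1 hvk
      (mem_Zs.mp hv).2 hcj
    rw [hin]
    rw [hD] at hm hD0
    push_cast at hm hD0
    have hne : (cnt x x : ℂ) * ((R x p).card : ℂ) ≠ 0 := hD0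
    have hc0 : (cnt x x : ℂ) ≠ 0 := left_ne_zero_of_mul hne
    have hr0 : ((R x p).card : ℂ) ≠ 0 := right_ne_zero_of_mul hne
    have e : (cnt x x : ℂ) * ((R x p).card : ℂ) * (B + (Nat.card (P : Subgroup G) : ℂ) - (Nat.card (P : Subgroup G) : ℂ) * (cnt x x : ℂ)) = 0 := by
      linear_combination hm
    have e2 := (mul_eq_zero.mp e).resolve_left hne
    linear_combination e2
  · have hcj' : ¬ IsConj u⁻¹ v⁻¹ := by
      intro h
      apply hcj
      obtain ⟨c, hc'⟩ := isConj_iff.mp h
      refine isConj_iff.mpr ⟨c, ?_⟩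
      have h2 := congrArg (fun a => a⁻¹) hc'
      simp only [inv_inv] at h2
      rw [← h2]
      group
    have hreg := card_reg_ne hcyc hc hx hu hv' hcj'
    rw [hreg] at hm
    have hin := inner_not hM (g := u) (t := u) (r := 1) (mul_one u) (Commute.one_right u) huk hr1 hvk hcj
    rw [hin, add_zero]
    push_cast at hm
    have e : ((D v⁻¹).card : ℂ) * (B - (Nat.card (P : Subgroup G) : ℂ) * (cnt x x : ℂ)) = 0 := by
      linear_combination hm
    have e2 := (mul_eq_zero.mp e).resolve_left hD0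
    linear_combination e2

end moment

end Cfsg.Agent.H08.Mom.Cyc
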