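import Mathlib
import Cfsg.Agent.Lib.H08.Mom.CycBlock

/-!
Cyclic Sylow subgroups and `p`-solvable pairs of elements of order `p`: bounds for characters on the Sylow subgroup.
-/

set_option autoImplicit false

namespace Cfsg.Agent.H08.Mom.Cyc

open scoped ComplexConjugate
open Cfsg Cfsg.Agent.H21 Cfsg.Agent.H22

universe u

/-- A character of a finite abelian group: a lower bound for its norm, in terms of its restriction to a subgroup. -/
theorem abelian_bound {T : Type u} [Group T] [Finite T] (hT : ∀ a b : T, a * b = b * a) (Z : Subgroup T)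
    {ψ : T → ℂ} (hψ : IsCharacter T ψ) {n₀ D : ℕ} (hn₀ : (Nat.card Z : ℂ) * n₀ = ∑ w : Z, ψ w) (hD : ψ 1 = D) :
    (Nat.card Z : ℝ) * n₀ ^ 2 + (Nat.card T : ℝ) * ((D : ℝ) - n₀) ≤ ∑ z : T, Complex.normSq (ψ z) := by
  classical
  obtain ⟨m, hm, hm'⟩ := isCharacter_decomp hψ
  have hψv : ∀ g, ψ g = ∑ l : IrrCharacter T, (m l : ℂ) * l.1 g := by
    intro g
    conv_lhs => rw [hm]
    simp [Finset.sum_apply]
  have hlin : ∀ l : IrrCharacter T, charDegree l.1 = 1 := fun l => irr_degree_one_of_comm hT l.2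
  have hl1 : ∀ l : IrrCharacter T, l.1 1 = 1 := fun l => linear_one (isCharacter_of_irr l.2) (hlin l)
  have hlmul : ∀ (l : IrrCharacter T) (a b : T), l.1 (a * b) = l.1 a * l.1 b :=
    fun l => linear_mul (isCharacter_of_irr l.2) (hlin l)
  have hsumm : (D : ℂ) = ∑ l : IrrCharacter T, (m l : ℂ) := by
    rw [← hD, hψv]
    simp [hl1]
  let S₁ : Finset (IrrCharacter T) := Finset.univ.filter (fun l => ∀ w ∈ Z, l.1 w = 1)
  have hs : ∀ l : IrrCharacter T, ∑ w : Z, l.1 w = if l ∈ S₁ then (Nat.card Z : ℂ) else 0 := by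
    intro l
    split_ifs with h
    · have h1 : ∀ w : Z, l.1 w = 1 := fun w => (Finset.mem_filter.mp h).2 w w.2
      simp [h1, Finset.card_univ, Nat.card_eq_fintype_card]
    · have h1 : ∃ w ∈ Z, l.1 w ≠ 1 := by
        by_contra hcon
        push Not at hcon
        exact h (Finset.mem_filter.mpr ⟨Finset.mem_univ _, hcon⟩)
      obtain ⟨w, hw, hw1⟩ := h1
      exact sum_mul_eq_zero (G := Z) (fun a : Z => l.1 a) (fun a b => hlmul l a b) (w := ⟨w, hw⟩) hw1
  have hZ0 : (Nat.card Z : ℂ) ≠ 0 := by exact_mod_cast (Nat.card_pos (α := Z)).ne'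
  have hT0 : (Nat.card T : ℂ) ≠ 0 := by exact_mod_cast (Nat.card_pos (α := T)).ne'
  -- the multiplicities on `S₁`
  have hS1sum : ∑ l ∈ S₁, (m l : ℂ) = n₀ := by
    have h1 : ∑ w : Z, ψ w = (Nat.card Z : ℂ) * ∑ l ∈ S₁, (m l : ℂ) := by
      calc ∑ w : Z, ψ w = ∑ w : Z, ∑ l : IrrCharacter T, (m l : ℂ) * l.1 w :=
            Finset.sum_congr rfl fun w _ => hψv w
        _ = ∑ l : IrrCharacter T, (m l : ℂ) * ∑ w : Z, l.1 w := by
            rw [Finset.sum_comm]
            exact Finset.sum_congr rfl fun l _ => (Finset.mul_sum _ _ _).symm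
        _ = ∑ l : IrrCharacter T, if l ∈ S₁ then (Nat.card Z : ℂ) * (m l : ℂ) else 0 := by
            refine Finset.sum_congr rfl fun l _ => ?_
            rw [hs l]
            split_ifs <;> ring
        _ = (Nat.card Z : ℂ) * ∑ l ∈ S₁, (m l : ℂ) := by
            rw [Finset.sum_ite_mem, Finset.univ_inter, Finset.mul_sum]
    rw [h1] at hn₀
    exact (mul_left_cancel₀ hZ0 hn₀).symm
  -- the number of characters in `S₁`
  have hS1card : (S₁.card : ℂ) * (Nat.card Z : ℂ) = (Nat.card T : ℂ) := by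
    have h1 : ∑ w : Z, ∑ l : IrrCharacter T, l.1 w * conj (l.1 1) = (Nat.card T : ℂ) := by
      have h2 : ∀ w : Z, ∑ l : IrrCharacter T, l.1 w * conj (l.1 1) = if w = 1 then (Nat.card T : ℂ) else 0 := by
        intro w
        split_ifs with h
        · subst h
          have h3 := column_orthogonality_of_isConj (IsConj.refl (1 : T))
          have h4 : Subgroup.centralizer ({(1 : T)} : Set T) = ⊤ := by
            ext a
            simp [Subgroup.mem_centralizer_singleton_iff]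
          rw [h4] at h3
          simpa [Nat.card_congr (Subgroup.topEquiv (G := T)).toEquiv] using h3
        · have h3 : ¬ IsConj (w : T) 1 := by
            intro h4
            exact h (Subtype.ext (isConj_one_left.mp h4))
          exact column_orthogonality_of_not_isConj h3
      rw [Finset.sum_congr rfl fun w _ => h2 w]
      simp
    rw [← h1, Finset.sum_comm]
    have h3 : ∀ l : IrrCharacter T, ∑ w : Z, l.1 w * conj (l.1 1) = if l ∈ S₁ then (Nat.card Z : ℂ) else 0 := by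
      intro l
      rw [hl1 l, map_one, ← hs l]
      simp
    rw [Finset.sum_congr rfl fun l _ => h3 l, Finset.sum_ite_mem, Finset.univ_inter, Finset.sum_const, nsmul_eq_mul]
  -- the norm
  have hnorm : ∑ z : T, ψ z * conj (ψ z) = (Nat.card T : ℂ) * ∑ l : IrrCharacter T, (m l : ℂ) ^ 2 := by
    calc ∑ z : T, ψ z * conj (ψ z) = ∑ z : T, ψ z * ∑ l : IrrCharacter T, (m l : ℂ) * conj (l.1 z) := by
          refine Finset.sum_congr rfl fun z _ => ?_
          congr 1
          conv_lhs => rw [hψv z]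
          rw [map_sum]
          refine Finset.sum_congr rfl fun l _ => ?_
          rw [map_mul, Complex.conj_natCast]
      _ = ∑ l : IrrCharacter T, (m l : ℂ) * ∑ z : T, ψ z * conj (l.1 z) := by
          simp only [Finset.mul_sum]
          rw [Finset.sum_comm]
          refine Finset.sum_congr rfl fun l _ => Finset.sum_congr rfl fun z _ => ?_
          ring
      _ = (Nat.card T : ℂ) * ∑ l : IrrCharacter T, (m l : ℂ) ^ 2 := by
          rw [Finset.mul_sum]
          refine Finset.sum_congr rfl fun l _ => ?_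
          have h1 := hm' l
          unfold classInner at h1
          have h2 : ∑ z : T, ψ z * conj (l.1 z) = (Nat.card T : ℂ) * (m l : ℂ) := by
            rw [← h1]
            field_simp
          rw [h2]
          ring
  -- passing to real numbers
  have hnormR : ∑ z : T, Complex.normSq (ψ z) = (Nat.card T : ℝ) * ∑ l : IrrCharacter T, (m l : ℝ) ^ 2 := by
    have h1 : ((∑ z : T, Complex.normSq (ψ z) : ℝ) : ℂ) =
        (((Nat.card T : ℝ) * ∑ l : IrrCharacter T, (m l : ℝ) ^ 2 : ℝ) : ℂ) := by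
      push_cast
      rw [← hnorm]
      refine Finset.sum_congr rfl fun z _ => ?_
      rw [Complex.mul_conj]
    exact_mod_cast h1
  have hS1sumR : ∑ l ∈ S₁, (m l : ℝ) = n₀ := by
    have h1 : ((∑ l ∈ S₁, (m l : ℝ) : ℝ) : ℂ) = ((n₀ : ℝ) : ℂ) := by
      push_cast
      exact hS1sum
    exact_mod_cast h1
  have hS1cardR : (S₁.card : ℝ) * (Nat.card Z : ℝ) = (Nat.card T : ℝ) := by
    have h1 : (((S₁.card : ℝ) * (Nat.card Z : ℝ) : ℝ) : ℂ) = ((Nat.card T : ℝ) : ℂ) := by
      push_cast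
      exact hS1card
    exact_mod_cast h1
  have hsummR : (D : ℝ) = ∑ l : IrrCharacter T, (m l : ℝ) := by
    have h1 : ((D : ℝ) : ℂ) = ((∑ l : IrrCharacter T, (m l : ℝ) : ℝ) : ℂ) := by
      push_cast
      exact hsumm
    exact_mod_cast h1
  rw [hnormR, ← Finset.sum_add_sum_compl S₁ (fun l => (m l : ℝ) ^ 2)]
  rw [← Finset.sum_add_sum_compl S₁ (fun l => (m l : ℝ))] at hsummR
  have hcs : (n₀ : ℝ) ^ 2 ≤ (S₁.card : ℝ) * ∑ l ∈ S₁, (m l : ℝ) ^ 2 := by
    rw [← hS1sumR]
    exact sq_sum_le_card_mul_sum_sq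
  have hge : ∑ l ∈ S₁ᶜ, (m l : ℝ) ≤ ∑ l ∈ S₁ᶜ, (m l : ℝ) ^ 2 := by
    refine Finset.sum_le_sum fun l _ => ?_
    have h1 : m l ≤ m l ^ 2 := Nat.le_self_pow (by norm_num) _
    exact_mod_cast h1
  have hZpos : (0 : ℝ) ≤ (Nat.card Z : ℝ) := Nat.cast_nonneg _
  have hTpos : (0 : ℝ) ≤ (Nat.card T : ℝ) := Nat.cast_nonneg _
  have h1 : (Nat.card Z : ℝ) * (n₀ : ℝ) ^ 2 ≤ (Nat.card T : ℝ) * ∑ l ∈ S₁, (m l : ℝ) ^ 2 := by
    rw [← hS1cardR]
    calc (Nat.card Z : ℝ) * (n₀ : ℝ) ^ 2 ≤ (Nat.card Z : ℝ) * ((S₁.card : ℝ) * ∑ l ∈ S₁, (m l : ℝ) ^ 2) :=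
          mul_le_mul_of_nonneg_left hcs hZpos
      _ = _ := by ring
  have h2 : (Nat.card T : ℝ) * ((D : ℝ) - n₀) ≤ (Nat.card T : ℝ) * ∑ l ∈ S₁ᶜ, (m l : ℝ) ^ 2 := by
    apply mul_le_mul_of_nonneg_left _ hTpos
    rw [hsummR, hS1sumR]
    linarith
  rw [mul_add]
  linarith

variable {G : Type u} [Group G] [Finite G] {p : ℕ} [hp : Fact p.Prime] {M : Ideal AlgInt} [M.IsPrime]

open Classical in
/-- The nonidentity elements of a subgroup. -/
noncomputable def Ks (K : Subgroup G) : Finset G := Finset.univ.filter (fun w => w ∈ K ∧ w ≠ 1)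

theorem mem_Ks {K : Subgroup G} {w : G} : w ∈ Ks K ↔ w ∈ K ∧ w ≠ 1 := by
  classical
  simp [Ks]

theorem sum_subgroup (K : Subgroup G) {R : Type*} [AddCommMonoid R] (f : G → R) :
    ∑ g : K, f g = f 1 + ∑ w ∈ Ks K, f w := by
  classical
  have h1 : ∑ g : K, f g = ∑ w ∈ Finset.univ.filter (fun w => w ∈ K), f w :=
    (Finset.sum_subtype _ (by simp) f).symm
  rw [h1, ← Finset.add_sum_erase _ _ (Finset.mem_filter.mpr ⟨Finset.mem_univ (1 : G), K.one_mem⟩)]
  congr 1
  refine Finset.sum_congr ?_ fun _ _ => rfl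
  ext w
  rw [mem_Ks, Finset.mem_erase, Finset.mem_filter]
  simp [and_comm]

theorem Ks_zpowers (x : G) : Ks (Subgroup.zpowers x) = Zs x := rfl

/-- The multiplicity of the trivial character of `⟨x⟩`. -/
theorem n0_exists (x : G) (hx : orderOf x = p) (χ : IrrCharacter G) :
    ∃ n : ℕ, (p : ℂ) * n = A x χ + χ.1 1 := by
  classical
  have hχ := isCharacter_of_irr χ.2
  have hres := isCharacter_restrict (Subgroup.zpowers x) hχ
  have hone : IsCharacter (Subgroup.zpowers x) (fun _ => (1 : ℂ)) := isCharacter_of_irr isIrrCharacter_one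
  obtain ⟨n, hn⟩ := classInner_isCharacter_nat hres hone
  refine ⟨n, ?_⟩
  unfold classInner at hn
  simp only [map_one, mul_one] at hn
  have hc : Nat.card (Subgroup.zpowers x) = p := by rw [Nat.card_zpowers, hx]
  rw [hc] at hn
  have hp0 : (p : ℂ) ≠ 0 := by exact_mod_cast (hp.out).ne_zero
  have h1 := sum_subgroup (Subgroup.zpowers x) (fun g => χ.1 g)
  rw [Ks_zpowers] at h1
  have h2 : A x χ + χ.1 1 = ∑ g : Subgroup.zpowers x, χ.1 g := by
    rw [h1, add_comm]
    rfl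
  rw [h2, ← hn]
  field_simp

section row

variable (hM : IsPModular p M) (P : Sylow p G) (hcyc : ∀ S : Sylow p G, IsCyclic (S : Subgroup G))

include hcyc

omit [M.IsPrime] in
open Classical in
/-- Elements of `P` conjugate to a given one: at most `p - 1`. -/
theorem conj_count_le {x : G} (hxP : x ∈ (P : Subgroup G)) (hx : orderOf x = p) {z : G}
    (hz : z ∈ Ks (P : Subgroup G)) :
    ((Ks (P : Subgroup G)).filter (fun a => IsConj a z)).card ≤ p - 1 := by
  classical
  have hpp : p.Prime := hp.out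
  have hPord : ∀ a ∈ (P : Subgroup G), ∃ m : ℕ, orderOf a = p ^ m := by
    intro a ha
    obtain ⟨m, hm⟩ := IsPGroup.iff_orderOf.mp P.isPGroup' ⟨a, ha⟩
    exact ⟨m, by rw [← hm, Subgroup.orderOf_mk]⟩
  obtain ⟨m, hm⟩ := hPord z (mem_Ks.mp hz).1
  have hm0 : m ≠ 0 := by
    rintro rfl
    rw [pow_zero, orderOf_eq_one_iff] at hm
    exact (mem_Ks.mp hz).2 hm
  obtain ⟨s, rfl⟩ := Nat.exists_eq_succ_of_ne_zero hm0
  rw [← card_Zs hx]
  haveI hPc : IsCyclic (P : Subgroup G) := hcyc P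
  have hxP' : x ∈ (P : Subgroup G) := hxP
  -- a power of order `p`
  have hτ : ∀ a ∈ (Ks (P : Subgroup G)).filter (fun a => IsConj a z),
      orderOf (a ^ p ^ s) = p ∧ a ^ p ^ s ∈ Zs x ∧ orderOf a = p ^ (s + 1) := by
    intro a ha
    have ha' := Finset.mem_filter.mp ha
    have hao : orderOf a = p ^ (s + 1) := by rw [order_of_conj ha'.2, hm]
    have ho : orderOf (a ^ p ^ s) = p := by
      rw [orderOf_pow' _ (pow_ne_zero _ hpp.ne_zero), hao, Nat.pow_succ]
      have : (p ^ s * p).gcd (p ^ s) = p ^ s := Nat.gcd_eq_right (dvd_mul_right _ _)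
      rw [this]
      exact Nat.mul_div_cancel_left _ (pow_pos hpp.pos _)
    refine ⟨ho, ?_, hao⟩
    have haP : a ^ p ^ s ∈ (P : Subgroup G) := Subgroup.pow_mem _ (mem_Ks.mp ha'.1).1 _
    have h1 : (⟨a ^ p ^ s, haP⟩ : (P : Subgroup G)) ∈ Subgroup.zpowers (⟨x, hxP'⟩ : (P : Subgroup G)) := by
      apply H19.mem_zpowers_of_orderOf_eq_prime (r := p)
      · rw [Subgroup.orderOf_mk, hx]
      · rw [Subgroup.orderOf_mk, ho]
    obtain ⟨i, hi⟩ := h1
    refine mem_Zs.mpr ⟨⟨i, by simpa using congrArg Subtype.val hi⟩, ?_⟩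
    intro h
    rw [h, orderOf_one] at ho
    exact hpp.one_lt.ne ho
  refine Finset.card_le_card_of_injOn (fun a => a ^ p ^ s) (fun a ha => (hτ a ha).2.1) ?_
  intro a ha b hb hab
  have hab' : a ^ p ^ s = b ^ p ^ s := hab
  have ha' := Finset.mem_filter.mp (Finset.mem_coe.mp ha)
  have hb' := Finset.mem_filter.mp (Finset.mem_coe.mp hb)
  obtain ⟨g, hg⟩ := isConj_iff.mp (ha'.2.trans hb'.2.symm)
  obtain ⟨hτo, -, -⟩ := hτ a (Finset.mem_coe.mp ha)
  set τ := a ^ p ^ s with hτdef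
  have hτk : orderOf τ = p ^ 1 := by rw [hτo, pow_one]
  have hτ1 : τ ≠ 1 := by
    intro h
    rw [h, orderOf_one] at hτo
    exact hpp.one_lt.ne hτo
  obtain ⟨O, hOn, hcop, -, hcomm⟩ := npc_data P hcyc hτk hτ1
  have hgC : g ∈ Subgroup.centralizer ({τ} : Set G) := by
    rw [Subgroup.mem_centralizer_singleton_iff]
    have h1 : g * τ * g⁻¹ = τ := by
      rw [hτdef, ← conj_pow, hg, ← hab']
    calc g * τ = (g * τ * g⁻¹) * g := by group
      _ = τ * g := by rw [h1]
  have haC : a ∈ Subgroup.centralizer ({τ} : Set G) := by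
    rw [Subgroup.mem_centralizer_singleton_iff, hτdef]
    exact (Commute.pow_right (Commute.refl a) _).symm.eq.symm
  have hmem := hcomm ⟨g, hgC⟩ ⟨a, haC⟩
  have hval : ((⟨g, hgC⟩ : Subgroup.centralizer ({τ} : Set G)) * ⟨a, haC⟩ * (⟨g, hgC⟩ : Subgroup.centralizer ({τ} : Set G))⁻¹ * (⟨a, haC⟩ : Subgroup.centralizer ({τ} : Set G))⁻¹ : Subgroup.centralizer ({τ} : Set G)).1 = b * a⁻¹ := by
    simp only [Subgroup.coe_mul, Subgroup.coe_inv]
    rw [hg]
  set e : Subgroup.centralizer ({τ} : Set G) := (⟨g, hgC⟩ : Subgroup.centralizer ({τ} : Set G)) * ⟨a, haC⟩ * (⟨g, hgC⟩ : Subgroup.centralizer ({τ} : Set G))⁻¹ * (⟨a, haC⟩ : Subgroup.centralizer ({τ} : Set G))⁻¹ with he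
  have hbaP : b * a⁻¹ ∈ (P : Subgroup G) :=
    Subgroup.mul_mem _ (mem_Ks.mp hb'.1).1 (Subgroup.inv_mem _ (mem_Ks.mp ha'.1).1)
  obtain ⟨n, hn⟩ := hPord _ hbaP
  have h1 : orderOf e ∣ Nat.card O := Subgroup.orderOf_dvd_natCard O hmem
  have h2 : orderOf e = p ^ n := by
    rw [← Subgroup.orderOf_coe, hval, hn]
  rw [h2] at h1
  have h3 : p ^ n = 1 := by
    have hcop' : Nat.Coprime (Nat.card O) (p ^ n) := Nat.Coprime.pow_right _ hcop
    exact Nat.Coprime.eq_one_of_dvd hcop'.symm h1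
  rw [h3, orderOf_eq_one_iff] at hn
  exact (mul_inv_eq_one.mp hn).symm

include hM

/-- The bound for the sum over a row. -/
theorem row_bound {x : G} (hxP : x ∈ (P : Subgroup G)) (hx : orderOf x = p) {χ : IrrCharacter G}
    (hχ : χ ∈ principalBlock M G) :
    ∑ z ∈ Ks (P : Subgroup G), Complex.normSq (χ.1 z) ≤ (Nat.card (P : Subgroup G) : ℝ) * ((p : ℝ) - 1) := by
  classical
  have hpp : p.Prime := hp.out
  set q := Nat.card (P : Subgroup G) with hq
  set Ps := Ks (P : Subgroup G) with hPs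
  set X := ∑ z ∈ Ps, Complex.normSq (χ.1 z) with hX
  have hX0 : 0 ≤ X := Finset.sum_nonneg fun z _ => Complex.normSq_nonneg _
  have hPord : ∀ a ∈ Ps, ∃ m : ℕ, orderOf a = p ^ m := by
    intro a ha
    obtain ⟨m, hm⟩ := IsPGroup.iff_orderOf.mp P.isPGroup' ⟨a, (mem_Ks.mp ha).1⟩
    exact ⟨m, by rw [← hm, Subgroup.orderOf_mk]⟩
  have hr1 : ¬ p ∣ orderOf (1 : G) := by
    rw [orderOf_one]
    exact fun h => hpp.one_lt.ne' (Nat.dvd_one.mp h)
  have hinner : ∀ a ∈ Ps, ∀ b ∈ Ps, ∑ ξ : IrrCharacter G, eB (principalBlock M G) ξ * (ξ.1 a * conj (ξ.1 b)) =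
      if IsConj b a then (q : ℂ) else 0 := by
    intro a ha b hb
    obtain ⟨m, hm⟩ := hPord a ha
    obtain ⟨n, hn⟩ := hPord b hb
    split_ifs with h
    · exact inner_conj hM P hcyc (g := a) (t := a) (r := 1) (mul_one a) (Commute.one_right a) hm hr1 hn
        (mem_Ks.mp hb).2 h.symm
    · exact inner_not hM (g := a) (t := a) (r := 1) (mul_one a) (Commute.one_right a) hm hr1 hn (fun h' => h h'.symm)
  let F : IrrCharacter G → ℂ := fun ξ => ∑ z ∈ Ps, conj (χ.1 z) * ξ.1 z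
  have hF : ∑ ξ : IrrCharacter G, eB (principalBlock M G) ξ * (F ξ * conj (F ξ)) =
      (q : ℂ) * ∑ a ∈ Ps, ((Ps.filter (fun b => IsConj b a)).card : ℂ) * (χ.1 a * conj (χ.1 a)) := by
    have h1 : ∀ ξ : IrrCharacter G, eB (principalBlock M G) ξ * (F ξ * conj (F ξ)) =
        ∑ a ∈ Ps, ∑ b ∈ Ps, conj (χ.1 a) * χ.1 b * (eB (principalBlock M G) ξ * (ξ.1 a * conj (ξ.1 b))) := by
      intro ξ
      simp only [F]
      rw [map_sum, Finset.sum_mul_sum, Finset.mul_sum]
      refine Finset.sum_congr rfl fun a _ => ?_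
      rw [Finset.mul_sum]
      refine Finset.sum_congr rfl fun b _ => ?_
      rw [map_mul, Complex.conj_conj]
      ring
    rw [Finset.sum_congr rfl fun ξ _ => h1 ξ, Finset.sum_comm, Finset.mul_sum]
    refine Finset.sum_congr rfl fun a ha => ?_
    rw [Finset.sum_comm]
    have h2 : ∀ b ∈ Ps, ∑ ξ : IrrCharacter G, conj (χ.1 a) * χ.1 b * (eB (principalBlock M G) ξ * (ξ.1 a * conj (ξ.1 b))) =
        if IsConj b a then (q : ℂ) * (χ.1 a * conj (χ.1 a)) else 0 := by
      intro b hb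
      rw [← Finset.mul_sum, hinner a ha b hb]
      split_ifs with h
      · obtain ⟨c, hc⟩ := isConj_iff.mp h
        have h3 : χ.1 b = χ.1 a := by
          rw [← hc]
          exact (isCharacter_conj (isCharacter_of_irr χ.2) b c).symm
        rw [h3]
        ring
      · rw [mul_zero]
    rw [Finset.sum_congr rfl h2, Finset.sum_ite, Finset.sum_const_zero, add_zero, Finset.sum_const, nsmul_eq_mul]
    ring
  -- real numbers
  have hFreal : ∑ ξ ∈ Finset.univ.filter (· ∈ principalBlock M G), Complex.normSq (F ξ) =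
      (q : ℝ) * ∑ a ∈ Ps, ((Ps.filter (fun b => IsConj b a)).card : ℝ) * Complex.normSq (χ.1 a) := by
    have h1 : ((∑ ξ ∈ Finset.univ.filter (· ∈ principalBlock M G), Complex.normSq (F ξ) : ℝ) : ℂ) =
        (((q : ℝ) * ∑ a ∈ Ps, ((Ps.filter (fun b => IsConj b a)).card : ℝ) * Complex.normSq (χ.1 a) : ℝ) : ℂ) := by
      push_cast
      have h2 : ∑ ξ ∈ Finset.univ.filter (· ∈ principalBlock M G), (F ξ * conj (F ξ)) =
          (q : ℂ) * ∑ a ∈ Ps, ((Ps.filter (fun b => IsConj b a)).card : ℂ) * (χ.1 a * conj (χ.1 a)) := by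
        rw [← Mom.sum_eB]
        exact hF
      simp only [Complex.mul_conj] at h2
      push_cast at h2
      exact h2
    exact_mod_cast h1
  have hsingle : Complex.normSq (F χ) ≤ ∑ ξ ∈ Finset.univ.filter (· ∈ principalBlock M G), Complex.normSq (F ξ) :=
    Finset.single_le_sum (f := fun ξ => Complex.normSq (F ξ)) (fun ξ _ => Complex.normSq_nonneg _)
      (Finset.mem_filter.mpr ⟨Finset.mem_univ _, hχ⟩)
  have hFχ : F χ = (X : ℂ) := by
    simp only [F, hX]
    push_cast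
    refine Finset.sum_congr rfl fun z _ => ?_
    rw [mul_comm, Complex.mul_conj]
  have hnormF : Complex.normSq (F χ) = X * X := by
    rw [hFχ, Complex.normSq_ofReal]
  have hle : ∑ a ∈ Ps, ((Ps.filter (fun b => IsConj b a)).card : ℝ) * Complex.normSq (χ.1 a) ≤ ((p : ℝ) - 1) * X := by
    rw [hX, Finset.mul_sum]
    refine Finset.sum_le_sum fun a ha => ?_
    refine mul_le_mul_of_nonneg_right ?_ (Complex.normSq_nonneg _)
    have h1 := conj_count_le P hcyc hxP hx ha
    have h2 : ((Ps.filter (fun b => IsConj b a)).card : ℝ) ≤ ((p - 1 : ℕ) : ℝ) := by exact_mod_cast h1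
    rw [Nat.cast_sub hpp.one_le] at h2
    simpa using h2
  have hq0 : (0 : ℝ) ≤ (q : ℝ) := Nat.cast_nonneg _
  have hmain : X * X ≤ ((q : ℝ) * ((p : ℝ) - 1)) * X := by
    calc X * X = Complex.normSq (F χ) := hnormF.symm
      _ ≤ _ := hsingle
      _ = _ := hFreal
      _ ≤ (q : ℝ) * (((p : ℝ) - 1) * X) := mul_le_mul_of_nonneg_left hle hq0
      _ = _ := by ring
  by_cases hX1 : X = 0
  · rw [hX1]
    have hp1 : (1 : ℝ) ≤ (p : ℝ) := by exact_mod_cast hpp.one_le
    exact mul_nonneg hq0 (by linarith)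
  · exact le_of_mul_le_mul_right hmain (lt_of_le_of_ne hX0 (Ne.symm hX1))

end row

end Cfsg.Agent.H08.Mom.Cyc
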