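import Mathlib
import Cfsg.Agent.Lib.H08.Mom.CycRow

/-!
Cyclic Sylow subgroups and `p`-solvable pairs of elements of order `p`: simple groups.
-/

set_option autoImplicit false

namespace Cfsg.Agent.H08.Mom.Cyc

open scoped ComplexConjugate
open Cfsg Cfsg.Agent.H21 Cfsg.Agent.H22

universe u

/-- The numerical contradiction for `p ≥ 5`. -/
theorem final_ge5 {ι : Type*} [DecidableEq ι] (S : Finset ι) (i₀ : ι) (h₀ : i₀ ∈ S) (Ar Cr : ι → ℝ) (pr T : ℝ)
    (hp5 : 5 ≤ pr) (hT : 2 * pr ≤ T) (hAr₀ : Ar i₀ = pr - 1) (hCr₀ : Cr i₀ = pr)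
    (hle : ∀ i ∈ S, i ≠ i₀ → Cr i ≤ (pr + 1) / 2)
    (h1 : ∑ i ∈ S, (Ar i) ^ 2 = T * (pr - 1)) (h2 : ∑ i ∈ S, Cr i * (Ar i) ^ 2 = (pr - 1) ^ 2 * T) : False := by
  rw [← Finset.add_sum_erase S _ h₀] at h1 h2
  have h3 : ∑ i ∈ S.erase i₀, Cr i * (Ar i) ^ 2 ≤ (pr + 1) / 2 * ∑ i ∈ S.erase i₀, (Ar i) ^ 2 := by
    rw [Finset.mul_sum]
    refine Finset.sum_le_sum fun i hi => ?_
    have hi' := Finset.mem_erase.mp hi
    exact mul_le_mul_of_nonneg_right (hle i hi'.2 hi'.1) (sq_nonneg _)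
  rw [hAr₀] at h1
  rw [hAr₀, hCr₀] at h2
  set U := ∑ i ∈ S.erase i₀, (Ar i) ^ 2 with hU
  set W := ∑ i ∈ S.erase i₀, Cr i * (Ar i) ^ 2 with hW
  have hq : 4 ≤ pr - 1 := by linarith
  set r := pr - 1 with hr
  have hpr : pr = r + 1 := by rw [hr]; ring
  rw [hpr] at h2 h3 hT
  have hU' : U = T * r - r ^ 2 := by linarith
  have h5 : r ^ 2 * T ≤ (r + 1) * r ^ 2 + (r + 1 + 1) / 2 * (T * r - r ^ 2) := by
    rw [hU'] at h3
    linarith
  have hr0 : 0 < r := by linarith
  have h6 : r * T ≤ (r + 1) * r + (r + 2) / 2 * (T - r) := by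
    have h7 : r * (r * T) ≤ r * ((r + 1) * r + (r + 2) / 2 * (T - r)) := by
      calc r * (r * T) = r ^ 2 * T := by ring
        _ ≤ _ := h5
        _ = _ := by ring
    exact le_of_mul_le_mul_left h7 hr0
  nlinarith

/-- The numerical contradiction for `p = 3`. -/
theorem final_eq3 {ι : Type*} [DecidableEq ι] (S : Finset ι) (i₀ j : ι) (h₀ : i₀ ∈ S) (hj : j ∈ S) (Ar Cr : ι → ℝ) (q : ℝ)
    (hAr₀ : Ar i₀ = 2) (hCr₀ : Cr i₀ = 3) (hAj : Ar j ≤ -2) (hCj : Cr j < 1)
    (hle : ∀ i ∈ S, i ≠ i₀ → Cr i ≤ 2)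
    (h1 : ∑ i ∈ S, (Ar i) ^ 2 = 4 * q) (h2 : ∑ i ∈ S, Cr i * (Ar i) ^ 2 = 8 * q) : False := by
  have hji : j ≠ i₀ := by
    rintro rfl
    rw [hAr₀] at hAj
    norm_num at hAj
  have hj' : j ∈ S.erase i₀ := Finset.mem_erase.mpr ⟨hji, hj⟩
  rw [← Finset.add_sum_erase S _ h₀, ← Finset.add_sum_erase (S.erase i₀) _ hj'] at h1 h2
  have h3 : ∑ i ∈ (S.erase i₀).erase j, Cr i * (Ar i) ^ 2 ≤ 2 * ∑ i ∈ (S.erase i₀).erase j, (Ar i) ^ 2 := by
    rw [Finset.mul_sum]
    refine Finset.sum_le_sum fun i hi => ?_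
    have hi' := Finset.mem_erase.mp (Finset.mem_erase.mp hi).2
    exact mul_le_mul_of_nonneg_right (hle i hi'.2 hi'.1) (sq_nonneg _)
  rw [hAr₀] at h1
  rw [hAr₀, hCr₀] at h2
  have h4 : 4 ≤ (Ar j) ^ 2 := by nlinarith
  have h5 : Cr j * (Ar j) ^ 2 < (Ar j) ^ 2 := by nlinarith
  linarith

variable {G : Type u} [Group G] [Finite G] {p : ℕ} [hp : Fact p.Prime] {M : Ideal AlgInt} [M.IsPrime]

/-- A constant value on `Zs x` is an integer. -/
theorem int_of_const {x : G} (hx : orderOf x = p) (χ : IrrCharacter G) (hconst : ∀ w ∈ Zs x, χ.1 w = χ.1 x) {n : ℕ}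
    (hn : (p : ℂ) * n = A x χ + χ.1 1) :
    ∃ a : ℤ, χ.1 x = a ∧ (p : ℤ) * n = charDegree χ.1 + ((p : ℤ) - 1) * a := by
  classical
  have hpp : p.Prime := hp.out
  have hχ := isCharacter_of_irr χ.2
  have hA : A x χ = ((p : ℂ) - 1) * χ.1 x := by
    unfold A
    rw [Finset.sum_congr rfl hconst, Finset.sum_const, card_Zs hx, nsmul_eq_mul, Nat.cast_sub hpp.one_le]
    simp
  have hdeg : χ.1 1 = (charDegree χ.1 : ℂ) := one_eq_charDegree hχ
  have hp1 : ((p : ℂ) - 1) ≠ 0 := by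
    have : ((p : ℂ) - 1) = ((p - 1 : ℕ) : ℂ) := by
      rw [Nat.cast_sub hpp.one_le]
      simp
    rw [this]
    exact_mod_cast (Nat.sub_pos_of_lt hpp.one_lt).ne'
  let r : ℚ := ((p : ℚ) * n - charDegree χ.1) / ((p : ℚ) - 1)
  have hr : ((r : ℚ) : ℂ) = χ.1 x := by
    simp only [r]
    push_cast
    rw [div_eq_iff hp1, hn, hA, hdeg]
    ring
  have hint : IsIntegral ℤ ((r : ℚ) : ℂ) := by
    rw [hr]
    exact isCharacter_isIntegral hχ x
  obtain ⟨z, hz⟩ := isInt_of_isIntegral_rat r hint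
  have hz' : χ.1 x = z := by
    rw [← hr, hz]
    simp
  refine ⟨z, hz', ?_⟩
  have h1 : (((p : ℤ) * n : ℤ) : ℂ) = ((charDegree χ.1 + ((p : ℤ) - 1) * z : ℤ) : ℂ) := by
    push_cast
    rw [hn, hA, hdeg, hz']
    ring
  exact_mod_cast h1

/-- In a simple group a nontrivial irreducible character does not have its degree as a value at a nonidentity element. -/
theorem ne_degree [IsSimpleGroup G] (χ : IrrCharacter G) (hχ1 : χ ≠ oneIrr G) {x : G} (hx1 : x ≠ 1) :
    χ.1 x ≠ χ.1 1 := by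
  classical
  have hχ := isCharacter_of_irr χ.2
  intro h1
  have hmem : x ∈ charKer χ.1 hχ := h1
  have htop : charKer χ.1 hχ = ⊤ := by
    rcases (charKer_normal χ.1 hχ).eq_bot_or_eq_top with h | h
    · rw [h, Subgroup.mem_bot] at hmem
      exact absurd hmem hx1
    · exact h
  have hall : ∀ g, χ.1 g = χ.1 1 := by
    intro g
    have : g ∈ charKer χ.1 hχ := by rw [htop]; trivial
    exact this
  have hin := classInner_irr χ χ
  rw [if_pos rfl] at hin
  unfold classInner at hin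
  have hd : (χ.1 1) * conj (χ.1 1) = 1 := by
    have h2 : ∑ g : G, χ.1 g * conj (χ.1 g) = (Nat.card G : ℂ) * ((χ.1 1) * conj (χ.1 1)) := by
      rw [Finset.sum_congr rfl (fun g _ => by rw [hall g])]
      simp [Finset.card_univ, Nat.card_eq_fintype_card]
    rw [h2] at hin
    have h3 : (Nat.card G : ℂ) ≠ 0 := by exact_mod_cast (Nat.card_pos (α := G)).ne'
    field_simp at hin
    exact hin
  have hdeg : (χ.1 1) = (charDegree χ.1 : ℂ) := one_eq_charDegree hχ
  rw [hdeg] at hd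
  have hd1 : charDegree χ.1 = 1 := by
    have : ((charDegree χ.1 : ℂ)) * conj (charDegree χ.1 : ℂ) = 1 := hd
    rw [Complex.conj_natCast] at this
    have h4 : ((charDegree χ.1 * charDegree χ.1 : ℕ) : ℂ) = ((1 : ℕ) : ℂ) := by
      push_cast
      exact this
    have h5 : charDegree χ.1 * charDegree χ.1 = 1 := by exact_mod_cast h4
    exact Nat.eq_one_of_mul_eq_one_right h5
  apply hχ1
  apply Subtype.ext
  funext g
  change χ.1 g = 1
  rw [hall g, hdeg, hd1]
  simp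

section final

variable (hM : IsPModular p M) (P : Sylow p G) (hcyc : ∀ S : Sylow p G, IsCyclic (S : Subgroup G))

include hM hcyc

/-- The bound `2 a ≤ χ(1)`. -/
theorem two_mul_le [IsSimpleGroup G] {x : G} (hxP : x ∈ (P : Subgroup G)) (hx : orderOf x = p)
    {χ : IrrCharacter G} (hχ : χ ∈ principalBlock M G) (hχ1 : χ ≠ oneIrr G)
    {n : ℕ} (hn : (p : ℂ) * n = A x χ + χ.1 1) {a : ℤ} (ha : χ.1 x = a)
    (hpn : (p : ℤ) * n = charDegree χ.1 + ((p : ℤ) - 1) * a) :
    2 * a ≤ charDegree χ.1 := by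
  classical
  have hpp : p.Prime := hp.out
  have hχc := isCharacter_of_irr χ.2
  have hx1 : x ≠ 1 := by
    rintro rfl
    rw [orderOf_one] at hx
    exact hpp.one_lt.ne hx
  set D := charDegree χ.1 with hD
  have hdeg : χ.1 1 = (D : ℂ) := one_eq_charDegree hχc
  -- `a < D`
  have hle : a ≤ D := by
    have h1 := isCharacter_norm_le hχc x
    rw [ha] at h1
    have h2 : |(a : ℝ)| ≤ (D : ℝ) := by
      simpa [Complex.norm_intCast] using h1
    have h3 := (abs_le.mp h2).2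
    exact_mod_cast h3
  have hne : a ≠ D := by
    intro he
    apply ne_degree χ hχ1 hx1
    rw [ha, he, hdeg]
    simp
  have hlt : a < D := lt_of_le_of_ne hle hne
  -- `n' = n - a`
  set t : ℤ := (n : ℤ) - a with ht
  have hp1 : (2 : ℤ) ≤ (p : ℤ) := by exact_mod_cast hpp.two_le
  have hDt : (D : ℤ) = a + p * t := by
    rw [ht]
    linear_combination -hpn
  have ht1 : 1 ≤ t := by
    by_contra hcon
    have h1 : t ≤ 0 := by omega
    have h2 : (p : ℤ) * t ≤ 0 := mul_nonpos_of_nonneg_of_nonpos (by omega) h1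
    omega
  -- the bound on `P`
  let X : (P : Subgroup G) := ⟨x, hxP⟩
  have hXord : orderOf X = p := by rw [Subgroup.orderOf_mk, hx]
  have hcard : Nat.card (Subgroup.zpowers X) = p := by rw [Nat.card_zpowers, hXord]
  have hres := isCharacter_restrict (P : Subgroup G) hχc
  have hcomm : ∀ a b : (P : Subgroup G), a * b = b * a := by
    intro a b
    have := comm_of_isPGroup hcyc (P : Subgroup G) P.isPGroup' a a.2 b b.2
    exact Subtype.ext this
  have hsum : ∑ w : Subgroup.zpowers X, χ.1 ((w : (P : Subgroup G)) : G) = ∑ g : Subgroup.zpowers x, χ.1 g := by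
    let f : Subgroup.zpowers X → Subgroup.zpowers x := fun w => ⟨((w : (P : Subgroup G)) : G), by
      obtain ⟨w, i, rfl⟩ := w
      exact ⟨i, by simp [X]⟩⟩
    have hf : Function.Bijective f := by
      constructor
      · intro a b hab
        have := congrArg Subtype.val hab
        exact Subtype.ext (Subtype.ext this)
      · rintro ⟨y, i, rfl⟩
        refine ⟨⟨X ^ i, Subgroup.zpow_mem_zpowers X i⟩, ?_⟩
        apply Subtype.ext
        simp [f, X]
    exact Fintype.sum_bijective f hf _ _ (fun w => rfl)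
  have hn₀ : (Nat.card (Subgroup.zpowers X) : ℂ) * n = ∑ w : Subgroup.zpowers X, (fun z : (P : Subgroup G) => χ.1 z) w := by
    rw [hcard, hn, hsum, sum_subgroup (Subgroup.zpowers x) (fun g => χ.1 g), Ks_zpowers, add_comm]
    rfl
  have hb := abelian_bound hcomm (Subgroup.zpowers X) hres hn₀ (by simpa using hdeg)
  rw [hcard] at hb
  have hrow := row_bound hM P hcyc hxP hx hχ
  have hsumP : ∑ z : (P : Subgroup G), Complex.normSq (χ.1 z) =
      Complex.normSq (χ.1 1) + ∑ z ∈ Ks (P : Subgroup G), Complex.normSq (χ.1 z) :=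
    sum_subgroup (P : Subgroup G) (fun g => Complex.normSq (χ.1 g))
  have hnormD : Complex.normSq (χ.1 1) = (D : ℝ) * D := by
    rw [hdeg]
    simp [Complex.normSq_natCast]
  rw [hsumP, hnormD] at hb
  set q := Nat.card (P : Subgroup G) with hq
  have hqpos : (0 : ℝ) < q := by exact_mod_cast (Nat.card_pos (α := (P : Subgroup G)))
  have hpr : (2 : ℝ) ≤ (p : ℝ) := by exact_mod_cast hpp.two_le
  -- casting
  have hDr : (D : ℝ) = a + p * t := by exact_mod_cast hDt
  have hnr : (n : ℝ) = a + t := by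
    rw [ht]
    push_cast
    ring
  have htr : (1 : ℝ) ≤ t := by exact_mod_cast ht1
  have hDn : (D : ℝ) - n = ((p : ℝ) - 1) * t := by
    rw [hDr, hnr]
    ring
  rw [hDn] at hb
  have hb2 : (p : ℝ) * (n : ℝ) ^ 2 ≤ (D : ℝ) * D := by
    have h1 : (q : ℝ) * ((p : ℝ) - 1) * 1 ≤ (q : ℝ) * ((p : ℝ) - 1) * t :=
      mul_le_mul_of_nonneg_left htr (mul_nonneg hqpos.le (by linarith))
    nlinarith
  have hp1r : (0 : ℝ) < (p : ℝ) - 1 := by linarith
  have hsq : (a : ℝ) ^ 2 ≤ p * (t : ℝ) ^ 2 := by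
    have h0 : ((p : ℝ) - 1) * ((a : ℝ) ^ 2 - p * (t : ℝ) ^ 2) ≤ 0 := by
      rw [hnr, hDr] at hb2
      nlinarith
    by_contra hc
    push Not at hc
    nlinarith [mul_pos hp1r (sub_pos.2 hc)]
  have hle2 : (a : ℝ) ≤ p * t := by
    by_contra hc
    push Not at hc
    have h1 : (0 : ℝ) ≤ p * t := by nlinarith
    have h2 : ((p : ℝ) * t) ^ 2 < (a : ℝ) ^ 2 := by nlinarith
    have h3 : (p : ℝ) * (t : ℝ) ^ 2 ≤ ((p : ℝ) * t) ^ 2 := by
      have : (0 : ℝ) ≤ (t : ℝ) ^ 2 := sq_nonneg _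
      nlinarith
    linarith
  have hle3 : a ≤ (p : ℤ) * t := by exact_mod_cast hle2
  rw [hDt]
  linarith

include P in
/-- The values of the characters in the principal block with nonzero multiplicity are constant. -/
theorem const_of_key (hc : ∀ x y : G, orderOf x = p → orderOf y = p → IsPSolvable p ↥(Subgroup.closure ({x, y} : Set G)))
    {x : G} (hx : orderOf x = p) (hx1 : x ∈ Zs x) {χ : IrrCharacter G} (hχ : χ ∈ principalBlock M G)
    (hne : A x χ + χ.1 1 ≠ 0) {u v : G} (hu : u ∈ Zs x) (hv : v ∈ Zs x) : χ.1 u = χ.1 v := by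
  classical
  have hpp : p.Prime := hp.out
  -- the nonnegative coefficients
  have hn0 := n0_exists x hx
  choose n0 hn0 using hn0
  have hdeg : ∀ ξ : IrrCharacter G, ξ.1 1 = (charDegree ξ.1 : ℂ) := fun ξ => one_eq_charDegree (isCharacter_of_irr ξ.2)
  have hdpos : ∀ ξ : IrrCharacter G, 0 < charDegree ξ.1 := fun ξ => irr_charDegree_pos ξ.2
  let Cr : IrrCharacter G → ℝ := fun ξ => (p : ℝ) * n0 ξ / charDegree ξ.1
  have hCr0 : ∀ ξ, 0 ≤ Cr ξ := fun ξ => by positivity
  have hCr : ∀ ξ : IrrCharacter G, (A x ξ + ξ.1 1) / ξ.1 1 = (Cr ξ : ℂ) := by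
    intro ξ
    rw [← hn0 ξ, hdeg ξ]
    simp only [Cr]
    push_cast
    rfl
  have key := fun a b (ha : a ∈ Zs x) (hb : b ∈ Zs x) => key_eq hM P hcyc hc hx (u := a) (v := b) ha hb hx1
  have hpsd : ∑ ξ : IrrCharacter G, eB (principalBlock M G) ξ * ((Cr ξ : ℂ) * ((ξ.1 u - ξ.1 v) * conj (ξ.1 u - ξ.1 v))) = 0 := by
    have e : ∀ ξ : IrrCharacter G, eB (principalBlock M G) ξ * ((Cr ξ : ℂ) * ((ξ.1 u - ξ.1 v) * conj (ξ.1 u - ξ.1 v))) =
        eB (principalBlock M G) ξ * ((A x ξ + ξ.1 1) / ξ.1 1 * (ξ.1 u * conj (ξ.1 u))) -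
        eB (principalBlock M G) ξ * ((A x ξ + ξ.1 1) / ξ.1 1 * (ξ.1 u * conj (ξ.1 v))) -
        eB (principalBlock M G) ξ * ((A x ξ + ξ.1 1) / ξ.1 1 * (ξ.1 v * conj (ξ.1 u))) +
        eB (principalBlock M G) ξ * ((A x ξ + ξ.1 1) / ξ.1 1 * (ξ.1 v * conj (ξ.1 v))) := by
      intro ξ
      rw [hCr ξ, map_sub]
      ring
    rw [Finset.sum_congr rfl fun ξ _ => e ξ, Finset.sum_add_distrib, Finset.sum_sub_distrib, Finset.sum_sub_distrib,
      key u u hu hu, key u v hu hv, key v u hv hu, key v v hv hv]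
    ring
  have hreal : ∑ ξ ∈ Finset.univ.filter (· ∈ principalBlock M G), Cr ξ * Complex.normSq (ξ.1 u - ξ.1 v) = 0 := by
    rw [Mom.sum_eB] at hpsd
    have h1 : ((∑ ξ ∈ Finset.univ.filter (· ∈ principalBlock M G), Cr ξ * Complex.normSq (ξ.1 u - ξ.1 v) : ℝ) : ℂ) = 0 := by
      push_cast
      rw [← hpsd]
      refine Finset.sum_congr rfl fun ξ _ => ?_
      rw [Complex.mul_conj]
    exact_mod_cast h1
  have hterm := (Finset.sum_eq_zero_iff_of_nonneg (fun ξ _ => mul_nonneg (hCr0 ξ) (Complex.normSq_nonneg _))).1 hreal χ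
    (Finset.mem_filter.mpr ⟨Finset.mem_univ _, hχ⟩)
  have hCχ : Cr χ ≠ 0 := by
    intro h
    apply hne
    have h1 := hCr χ
    rw [h] at h1
    have hd0 := char_ne_zero χ
    have h2 : (A x χ + χ.1 1) / χ.1 1 = 0 := by simpa using h1
    rcases div_eq_zero_iff.mp h2 with h3 | h3
    · exact h3
    · exact absurd h3 hd0
  have h3 := (mul_eq_zero.mp hterm).resolve_left hCχ
  rw [Complex.normSq_eq_zero] at h3
  exact sub_eq_zero.mp h3

end final

omit [M.IsPrime] in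
/-- There are at least two conjugates of `x` in `⟨x⟩`. -/
theorem cnt_ge_two [IsSimpleGroup G] (hG : ¬ IsMulCommutative G) (P : Sylow p G)
    (hcyc : ∀ S : Sylow p G, IsCyclic (S : Subgroup G)) {x : G} (hxP : x ∈ (P : Subgroup G)) (hx : orderOf x = p) :
    2 ≤ cnt x x := by
  classical
  have hpp : p.Prime := hp.out
  have hx1 : x ≠ 1 := by
    rintro rfl
    rw [orderOf_one] at hx
    exact hpp.one_lt.ne hx
  have hxZ : x ∈ Zs x := mem_Zs.mpr ⟨Subgroup.mem_zpowers x, hx1⟩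
  by_contra hcon
  have hle : cnt x x ≤ 1 := by omega
  have hfix : ∀ w ∈ Zs x, IsConj w x → w = x := by
    intro w hw hc
    unfold cnt at hle
    exact Finset.card_le_one.mp hle w (Finset.mem_filter.mpr ⟨hw, hc⟩) x (Finset.mem_filter.mpr ⟨hxZ, IsConj.refl x⟩)
  have hN : Subgroup.normalizer ((P : Subgroup G) : Set G) ≤ Subgroup.centralizer ((P : Subgroup G) : Set G) := by
    intro n hn
    have hnx : n * x * n⁻¹ ∈ (P : Subgroup G) := (Subgroup.mem_normalizer_iff.mp hn x).1 hxP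
    have hcj : IsConj (n * x * n⁻¹) x := (isConj_iff.mpr ⟨n, rfl⟩ : IsConj x (n * x * n⁻¹)).symm
    have hord : orderOf (n * x * n⁻¹) = p := by rw [order_of_conj hcj, hx]
    haveI hPc : IsCyclic (P : Subgroup G) := hcyc P
    have h1 : (⟨n * x * n⁻¹, hnx⟩ : (P : Subgroup G)) ∈ Subgroup.zpowers (⟨x, hxP⟩ : (P : Subgroup G)) := by
      apply H19.mem_zpowers_of_orderOf_eq_prime (r := p)
      · rw [Subgroup.orderOf_mk, hx]
      · rw [Subgroup.orderOf_mk, hord]
    obtain ⟨i, hi⟩ := h1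
    have h2 : n * x * n⁻¹ ∈ Zs x := by
      refine mem_Zs.mpr ⟨⟨i, by simpa using congrArg Subtype.val hi⟩, ?_⟩
      intro h
      rw [h, orderOf_one] at hord
      exact hpp.one_lt.ne hord
    have h3 := hfix _ h2 hcj
    have hcomm : Commute n x := by
      change n * x = x * n
      calc n * x = (n * x * n⁻¹) * n := by group
        _ = x * n := by rw [h3]
    exact H13.normalizer_centralizes_cyclic P (hcyc P) hxP hx1 hcomm hn
  obtain ⟨R, hRn, hRc⟩ := H19.burnside_complement P hN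
  rcases hRn.eq_bot_or_eq_top with h | h
  · have h1 : (P : Subgroup G) = ⊤ := by
      have h2 := hRc.sup_eq_top
      rwa [h, bot_sup_eq] at h2
    apply hG
    refine ⟨⟨fun a b => ?_⟩⟩
    exact comm_of_isPGroup hcyc (P : Subgroup G) P.isPGroup' a (by rw [h1]; trivial) b (by rw [h1]; trivial)
  · have h1 := hRc.disjoint
    rw [h, top_disjoint] at h1
    rw [h1, Subgroup.mem_bot] at hxP
    exact hx1 hxP

/-- A simple nonabelian group with cyclic Sylow `p`-subgroups, `p` dividing its order, has two elements of order `p`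
generating a group which is not `p`-solvable. -/
theorem main_simple [IsSimpleGroup G] (hG : ¬ IsMulCommutative G) (P : Sylow p G) (hP1 : (P : Subgroup G) ≠ ⊥)
    (hcyc : ∀ S : Sylow p G, IsCyclic (S : Subgroup G))
    (hc : ∀ x y : G, orderOf x = p → orderOf y = p → IsPSolvable p ↥(Subgroup.closure ({x, y} : Set G))) : False := by
  classical
  have hpp : p.Prime := hp.out
  -- an element of order `p`
  obtain ⟨x, hxP, hx⟩ : ∃ x ∈ (P : Subgroup G), orderOf x = p := by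
    obtain ⟨k, hk⟩ := IsPGroup.iff_card.mp P.isPGroup'
    have hk0 : k ≠ 0 := by
      rintro rfl
      rw [pow_zero] at hk
      apply hP1
      exact (Subgroup.card_eq_one).mp hk
    have hd : p ∣ Nat.card (P : Subgroup G) := by
      rw [hk]
      exact dvd_pow_self p hk0
    obtain ⟨y, hy⟩ := exists_prime_orderOf_dvd_card' p hd
    exact ⟨y, y.2, (Subgroup.orderOf_coe y).trans hy⟩
  obtain ⟨M, hM⟩ := exists_pModular hpp
  haveI : M.IsPrime := hM.2.1.isPrime
  have hx1 : x ≠ 1 := by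
    rintro rfl
    rw [orderOf_one] at hx
    exact hpp.one_lt.ne hx
  have hxZ : x ∈ Zs x := mem_Zs.mpr ⟨Subgroup.mem_zpowers x, hx1⟩
  have hE2 := cnt_ge_two hG P hcyc hxP hx
  set E := cnt x x with hE
  set q := Nat.card (P : Subgroup G) with hq
  have hpq : p ≤ q := by
    have h1 : orderOf x ∣ q := Subgroup.orderOf_dvd_natCard (P : Subgroup G) hxP
    rw [hx] at h1
    exact Nat.le_of_dvd Nat.card_pos h1
  have hn0 := n0_exists x hx
  choose n0 hn0 using hn0
  have hdeg : ∀ ξ : IrrCharacter G, ξ.1 1 = (charDegree ξ.1 : ℂ) := fun ξ => one_eq_charDegree (isCharacter_of_irr ξ.2)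
  have hdpos : ∀ ξ : IrrCharacter G, 0 < charDegree ξ.1 := fun ξ => irr_charDegree_pos ξ.2
  let Ar : IrrCharacter G → ℝ := fun ξ => (p : ℝ) * n0 ξ - charDegree ξ.1
  let Cr : IrrCharacter G → ℝ := fun ξ => (p : ℝ) * n0 ξ / charDegree ξ.1
  have hA : ∀ ξ : IrrCharacter G, A x ξ = (Ar ξ : ℂ) := by
    intro ξ
    simp only [Ar]
    push_cast
    rw [hn0 ξ, hdeg ξ]
    ring
  have hCr : ∀ ξ : IrrCharacter G, (A x ξ + ξ.1 1) / ξ.1 1 = (Cr ξ : ℂ) := by
    intro ξ
    rw [← hn0 ξ, hdeg ξ]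
    simp only [Cr]
    push_cast
    rfl
  let S : Finset (IrrCharacter G) := Finset.univ.filter (· ∈ principalBlock M G)
  have h₀ : oneIrr G ∈ S := Finset.mem_filter.mpr ⟨Finset.mem_univ _, oneIrr_mem_principal⟩
  have hp1 : ((p : ℂ) - 1) = ((p - 1 : ℕ) : ℂ) := by
    rw [Nat.cast_sub hpp.one_le]
    simp
  have hr1 : ¬ p ∣ orderOf (1 : G) := by
    rw [orderOf_one]
    exact fun h => hpp.one_lt.ne' (Nat.dvd_one.mp h)
  -- the sum of squares
  have hR5 : ∑ ξ ∈ S, (Ar ξ) ^ 2 = (q : ℝ) * E * ((p : ℝ) - 1) := by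
    have h1 : ∑ ξ : IrrCharacter G, eB (principalBlock M G) ξ * (A x ξ * A x ξ) = ∑ w ∈ Zs x, Lf M x w := by
      unfold Lf
      rw [Finset.sum_comm]
      refine Finset.sum_congr rfl fun ξ _ => ?_
      rw [← Finset.mul_sum, ← Finset.mul_sum]
      rfl
    have h2 : ∀ w ∈ Zs x, Lf M x w = (q : ℂ) * (E : ℂ) := by
      intro w hw
      have hk : orderOf w = p ^ 1 := by rw [pow_one]; exact Zs_order hx hw
      exact Lf_sing hM P hcyc hx (g := w) (t := w) (r := 1) (mul_one w) (Commute.one_right w) hk hr1 hw (IsConj.refl w) hxZ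
    rw [Finset.sum_congr rfl h2, Finset.sum_const, card_Zs hx, nsmul_eq_mul, Mom.sum_eB] at h1
    have h3 : ((∑ ξ ∈ S, (Ar ξ) ^ 2 : ℝ) : ℂ) = (((q : ℝ) * E * ((p : ℝ) - 1) : ℝ) : ℂ) := by
      push_cast
      have h4 : ∑ ξ ∈ S, (Ar ξ : ℂ) ^ 2 = ∑ ξ ∈ S, A x ξ * A x ξ :=
        Finset.sum_congr rfl fun ξ _ => by rw [hA ξ]; ring
      rw [h4]
      refine h1.trans ?_
      rw [Nat.cast_sub hpp.one_le]
      push_cast
      ring
    exact_mod_cast h3
  -- the weighted sum of squares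
  have hR3 : ∑ ξ ∈ S, Cr ξ * (Ar ξ) ^ 2 = ((p : ℝ) - 1) ^ 2 * ((q : ℝ) * E) := by
    have h1 := key_eq hM P hcyc hc hx (u := x) (v := x) hxZ hxZ hxZ
    rw [Mom.sum_eB] at h1
    have h3 : ((∑ ξ ∈ S, Cr ξ * (Ar ξ) ^ 2 : ℝ) : ℂ) = ((((p : ℝ) - 1) ^ 2 * ((q : ℝ) * E) : ℝ) : ℂ) := by
      push_cast
      rw [← h1, Finset.mul_sum]
      refine Finset.sum_congr rfl fun ξ hξ => ?_
      have hξ' : ξ ∈ principalBlock M G := (Finset.mem_filter.mp hξ).2
      by_cases hz : A x ξ + ξ.1 1 = 0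
      · rw [hz, zero_div, zero_mul, mul_zero, ← hCr ξ, hz, zero_div, zero_mul]
      · have hconst : ∀ w ∈ Zs x, ξ.1 w = ξ.1 x := fun w hw =>
          const_of_key hM P hcyc hc hx hxZ hξ' hz hw hxZ
        have hAx : A x ξ = ((p : ℂ) - 1) * ξ.1 x := by
          unfold A
          rw [Finset.sum_congr rfl hconst, Finset.sum_const, card_Zs hx, nsmul_eq_mul, Nat.cast_sub hpp.one_le]
          simp
        have hreal : conj (A x ξ) = A x ξ := by
          rw [hA ξ, Complex.conj_ofReal]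
        have hsq : (Ar ξ : ℂ) ^ 2 = ((p : ℂ) - 1) ^ 2 * (ξ.1 x * conj (ξ.1 x)) := by
          calc (Ar ξ : ℂ) ^ 2 = A x ξ * conj (A x ξ) := by rw [hreal, hA ξ]; ring
            _ = _ := by
              rw [hAx, map_mul, map_sub, map_one, Complex.conj_natCast]
              ring
        rw [hsq, hCr ξ]
        ring
    exact_mod_cast h3
  -- the orthogonality with the degrees
  have hort : ∑ ξ ∈ S, Ar ξ * (charDegree ξ.1 : ℝ) = 0 := by
    have h1 := Lf_reg (M := M) hM hx hr1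
    unfold Lf at h1
    rw [Mom.sum_eB] at h1
    have h3 : ((∑ ξ ∈ S, Ar ξ * (charDegree ξ.1 : ℝ) : ℝ) : ℂ) = 0 := by
      push_cast
      rw [← h1]
      refine Finset.sum_congr rfl fun ξ _ => ?_
      rw [hA ξ, hdeg ξ]
    exact_mod_cast h3
  -- the trivial character
  have hA₀ : A x (oneIrr G) = ((p : ℂ) - 1) := by
    unfold A
    have h1 : ∀ w ∈ Zs x, (oneIrr G).1 w = 1 := fun _ _ => rfl
    rw [Finset.sum_congr rfl h1, Finset.sum_const, card_Zs hx, nsmul_eq_mul, Nat.cast_sub hpp.one_le]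
    simp
  have hAr₀ : Ar (oneIrr G) = (p : ℝ) - 1 := by
    have h1 : ((Ar (oneIrr G) : ℝ) : ℂ) = (((p : ℝ) - 1 : ℝ) : ℂ) := by
      rw [← hA, hA₀]
      push_cast
      rfl
    exact_mod_cast h1
  have hCr₀ : Cr (oneIrr G) = (p : ℝ) := by
    have h1 : ((Cr (oneIrr G) : ℝ) : ℂ) = ((p : ℝ) : ℂ) := by
      rw [← hCr, hA₀]
      have h2 : (oneIrr G).1 1 = 1 := rfl
      rw [h2]
      push_cast
      ring
    exact_mod_cast h1
  -- the bound for the coefficients
  have hle : ∀ ξ ∈ S, ξ ≠ oneIrr G → Cr ξ ≤ ((p : ℝ) + 1) / 2 := by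
    intro ξ hξ hne
    have hξ' : ξ ∈ principalBlock M G := (Finset.mem_filter.mp hξ).2
    have hpr : (2 : ℝ) ≤ (p : ℝ) := by exact_mod_cast hpp.two_le
    by_cases hz : A x ξ + ξ.1 1 = 0
    · have h1 : Cr ξ = 0 := by
        have h2 := hCr ξ
        rw [hz, zero_div] at h2
        exact_mod_cast h2.symm
      rw [h1]
      linarith
    · have hconst : ∀ w ∈ Zs x, ξ.1 w = ξ.1 x := fun w hw =>
        const_of_key hM P hcyc hc hx hxZ hξ' hz hw hxZ
      obtain ⟨a, ha, hpn⟩ := int_of_const hx ξ hconst (hn0 ξ)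
      have h2a := two_mul_le hM P hcyc hxP hx hξ' hne (hn0 ξ) ha hpn
      have hdr : (0 : ℝ) < (charDegree ξ.1 : ℝ) := by exact_mod_cast hdpos ξ
      simp only [Cr]
      rw [div_le_iff₀ hdr]
      have hpn' : (p : ℝ) * n0 ξ = charDegree ξ.1 + ((p : ℝ) - 1) * a := by exact_mod_cast hpn
      have h2a' : 2 * (a : ℝ) ≤ (charDegree ξ.1 : ℝ) := by exact_mod_cast h2a
      rw [hpn']
      have hp1' : (0 : ℝ) ≤ (p : ℝ) - 1 := by linarith
      nlinarith [mul_le_mul_of_nonneg_left h2a' hp1']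
  -- the cases
  have hcard : E ≤ p - 1 := by
    rw [← card_Zs hx]
    exact Finset.card_filter_le _ _
  have hp2 : p ≠ 2 := by
    rintro rfl
    omega
  by_cases hp3 : p = 3
  · subst hp3
    have hE2' : E = 2 := by omega
    have hall : ∀ w ∈ Zs x, IsConj w x := by
      have h1 : (Zs x).filter (fun w => IsConj w x) = Zs x := by
        apply Finset.eq_of_subset_of_card_le (Finset.filter_subset _ _)
        rw [card_Zs hx]
        change _ ≤ cnt x x
        omega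
      intro w hw
      rw [← h1] at hw
      exact (Finset.mem_filter.mp hw).2
    have hconst : ∀ ξ : IrrCharacter G, ∀ w ∈ Zs x, ξ.1 w = ξ.1 x := by
      intro ξ w hw
      obtain ⟨c, hc'⟩ := isConj_iff.mp (hall w hw)
      rw [← hc']
      exact (isCharacter_conj (isCharacter_of_irr ξ.2) w c).symm
    obtain ⟨j, hj, hjneg⟩ : ∃ j ∈ S, Ar j < 0 := by
      by_contra hcon
      push Not at hcon
      have h1 : ∀ ξ ∈ S, 0 ≤ Ar ξ * (charDegree ξ.1 : ℝ) := fun ξ hξ =>
        mul_nonneg (hcon ξ hξ) (Nat.cast_nonneg _)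
      have h2 := (Finset.sum_eq_zero_iff_of_nonneg h1).1 hort _ h₀
      rw [hAr₀] at h2
      have h3 : (0 : ℝ) < (charDegree (oneIrr G).1 : ℝ) := by exact_mod_cast hdpos _
      have h4 := (mul_eq_zero.mp h2).resolve_right h3.ne'
      norm_num at h4
    obtain ⟨a, ha, hpn⟩ := int_of_const hx j (hconst j) (hn0 j)
    have hArj : Ar j = 2 * a := by
      simp only [Ar]
      have hpn' : ((3 : ℕ) : ℝ) * n0 j = charDegree j.1 + (((3 : ℕ) : ℝ) - 1) * a := by exact_mod_cast hpn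
      rw [hpn']
      push_cast
      ring
    have hAj : Ar j ≤ -2 := by
      rw [hArj] at hjneg ⊢
      have h1 : (a : ℝ) < 0 := by linarith
      have h2 : a < 0 := by exact_mod_cast h1
      have h3 : a ≤ -1 := by omega
      have h4 : (a : ℝ) ≤ -1 := by exact_mod_cast h3
      linarith
    have hCj : Cr j < 1 := by
      have hdr : (0 : ℝ) < (charDegree j.1 : ℝ) := by exact_mod_cast hdpos j
      simp only [Cr]
      rw [div_lt_one hdr]
      simp only [Ar] at hjneg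
      linarith
    refine final_eq3 S (oneIrr G) j h₀ hj Ar Cr (q : ℝ) ?_ ?_ hAj hCj ?_ ?_ ?_
    · rw [hAr₀]
      norm_num
    · rw [hCr₀]
      norm_num
    · intro i hi hne
      have := hle i hi hne
      norm_num at this
      linarith
    · rw [hR5, hE2']
      push_cast
      ring
    · rw [hR3, hE2']
      push_cast
      ring
  · have hp5 : 5 ≤ p := by
      by_contra hcon
      have h1 : p = 4 := by
        have := hpp.two_le
        omega
      rw [h1] at hpp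
      exact absurd hpp (by norm_num)
    refine final_ge5 S (oneIrr G) h₀ Ar Cr (p : ℝ) ((q : ℝ) * E) (by exact_mod_cast hp5) ?_ hAr₀ hCr₀ hle ?_ hR3
    · have h1 : (p : ℝ) ≤ q := by exact_mod_cast hpq
      have h2 : (2 : ℝ) ≤ E := by exact_mod_cast hE2
      have h3 : (0 : ℝ) ≤ (p : ℝ) := Nat.cast_nonneg _
      nlinarith
    · exact hR5

end Cfsg.Agent.H08.Mom.Cyc
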