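import Mathlib
import Cfsg.Agent.Lib.H08.Mom.CycMain
import Cfsg.Agent.Lib.H08.PCoreL
import Cfsg.Agent.Lib.H01.Transfer2
import Cfsg.Agent.Lib.H06.PSolvable
import Cfsg.Agent.Lib.H06.Layer2
import Cfsg.Agent.Lib.H12.Core
import Cfsg.Agent.Lib.H26.QuadSL2
import Cfsg.Agent.Lib.H19.CyclicSylow

/-!
Cyclic Sylow subgroups and `p`-solvable pairs of elements of order `p`: the reduction to simple groups.
-/

set_option autoImplicit false

namespace Cfsg.Agent.H08.Mom.Cyc

open Cfsg
open scoped commutatorElement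

universe u

variable {G : Type u} [Group G] [Finite G] {p : ℕ} [hp : Fact p.Prime]

/-- Extension by a normal `p'`-subgroup. -/
theorem isPSolvable_of_quot (N : Subgroup G) [hN : N.Normal] (hc : (Nat.card N).Coprime p)
    (h : IsPSolvable p (G ⧸ N)) : IsPSolvable p G := by
  obtain ⟨n, H, h0, hn, hmono, hnorm, hfac⟩ := h
  let φ : G →* G ⧸ N := QuotientGroup.mk' N
  have hφ : Function.Surjective φ := QuotientGroup.mk'_surjective N
  refine ⟨n + 1, Fin.cons ⊥ (fun i => (H i).comap φ), rfl, ?_, ?_, ?_, ?_⟩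
  · have h1 : Fin.last (n + 1) = (Fin.last n).succ := rfl
    rw [h1, Fin.cons_succ, hn]
    exact Subgroup.comap_top _
  · rw [Fin.monotone_iff_le_succ]
    intro i
    refine Fin.cases ?_ (fun j => ?_) i
    · rw [Fin.castSucc_zero, Fin.cons_zero]
      exact bot_le
    · rw [← Fin.succ_castSucc, Fin.cons_succ, Fin.cons_succ]
      exact Subgroup.comap_mono (hmono (Fin.castSucc_lt_succ).le)
  · intro i
    refine Fin.cases ?_ (fun j => ?_) i
    · rw [Fin.cons_zero]
      infer_instance
    · rw [Fin.cons_succ]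
      haveI := hnorm j
      infer_instance
  · intro i
    refine Fin.cases ?_ (fun j => ?_) i
    · right
      rw [Fin.castSucc_zero, Fin.cons_zero, Fin.cons_succ, h0]
      have h1 : (⊥ : Subgroup (G ⧸ N)).comap φ = N := by
        rw [MonoidHom.comap_bot]
        exact QuotientGroup.ker_mk' N
      rw [h1, Subgroup.relIndex_bot_left]
      exact hc
    · rw [← Fin.succ_castSucc, Fin.cons_succ, Fin.cons_succ, Subgroup.relIndex_comap,
        Subgroup.map_comap_eq_self_of_surjective hφ]
      exact hfac j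

/-- A `p`-element in a normal `p'`-subgroup. -/
theorem lift_order (N : Subgroup G) [hN : N.Normal] (hc : (Nat.card N).Coprime p) {c : G ⧸ N} (hcp : orderOf c = p) :
    ∃ a : G, (a : G ⧸ N) = c ∧ orderOf a = p := by
  classical
  have hpp : p.Prime := hp.out
  let φ : G →* G ⧸ N := QuotientGroup.mk' N
  have hφ : Function.Surjective φ := QuotientGroup.mk'_surjective N
  have hck : orderOf c = p ^ 1 := by rw [hcp, pow_one]
  obtain ⟨S, hS⟩ := (isPGroup_zpowers_of_pow hck).exists_le_sylow
  obtain ⟨T, rfl⟩ := Sylow.mapSurjective_surjective hφ p S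
  obtain ⟨a, ha, rfl⟩ := hS (Subgroup.mem_zpowers c)
  refine ⟨a, rfl, ?_⟩
  have hap : a ^ p = 1 := by
    have h1 : a ^ p ∈ N := by
      rw [← QuotientGroup.eq_one_iff]
      change φ (a ^ p) = 1
      rw [map_pow, ← hcp, pow_orderOf_eq_one]
    have h2 : a ^ p ∈ (T : Subgroup G) := Subgroup.pow_mem _ ha _
    obtain ⟨m, hm⟩ := IsPGroup.iff_orderOf.mp T.isPGroup' ⟨a ^ p, h2⟩
    rw [Subgroup.orderOf_mk] at hm
    have h3 : orderOf (a ^ p) ∣ Nat.card N := Subgroup.orderOf_dvd_natCard N h1
    rw [hm] at h3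
    have h4 : p ^ m = 1 := Nat.Coprime.eq_one_of_dvd (Nat.Coprime.pow_right _ hc).symm h3
    rw [h4, orderOf_eq_one_iff] at hm
    exact hm
  refine orderOf_eq_prime hap ?_
  rintro rfl
  rw [map_one, orderOf_one] at hcp
  exact hpp.one_lt.ne hcp

/-- The hypotheses pass to quotients by normal `p'`-subgroups. -/
theorem cyc_quot (N : Subgroup G) [hN : N.Normal] (hcyc : ∀ S : Sylow p G, IsCyclic (S : Subgroup G)) :
    ∀ S : Sylow p (G ⧸ N), IsCyclic (S : Subgroup (G ⧸ N)) := by
  intro S
  let φ : G →* G ⧸ N := QuotientGroup.mk' N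
  have hφ : Function.Surjective φ := QuotientGroup.mk'_surjective N
  obtain ⟨T, rfl⟩ := Sylow.mapSurjective_surjective hφ p S
  haveI := hcyc T
  exact isCyclic_of_surjective (φ.subgroupMap (T : Subgroup G)) (φ.subgroupMap_surjective _)

theorem pair_quot (N : Subgroup G) [hN : N.Normal] (hcN : (Nat.card N).Coprime p)
    (hc : ∀ x y : G, orderOf x = p → orderOf y = p → IsPSolvable p ↥(Subgroup.closure ({x, y} : Set G))) :
    ∀ x y : G ⧸ N, orderOf x = p → orderOf y = p → IsPSolvable p ↥(Subgroup.closure ({x, y} : Set (G ⧸ N))) := by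
  intro x y hx hy
  obtain ⟨a, rfl, ha⟩ := lift_order N hcN hx
  obtain ⟨b, rfl, hb⟩ := lift_order N hcN hy
  let φ : G →* G ⧸ N := QuotientGroup.mk' N
  have e : Subgroup.closure ({(a : G ⧸ N), (b : G ⧸ N)} : Set (G ⧸ N)) =
      (Subgroup.closure ({a, b} : Set G)).map φ := by
    rw [MonoidHom.map_closure, Set.image_pair]
    rfl
  rw [e]
  exact H03.isPSolvable_of_surjective (φ.subgroupMap_surjective _) (hc a b ha hb)

theorem cyc_sub (N : Subgroup G) (hcyc : ∀ S : Sylow p G, IsCyclic (S : Subgroup G)) :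
    ∀ S : Sylow p N, IsCyclic (S : Subgroup N) := by
  intro S
  have h1 : IsPGroup p ((S : Subgroup N).map N.subtype) := S.isPGroup'.map _
  haveI h2 := isCyclic_of_le_sylow hcyc _ h1
  let e := (S : Subgroup N).equivMapOfInjective N.subtype N.subtype_injective
  exact isCyclic_of_injective e.toMonoidHom e.injective

theorem pair_sub (N : Subgroup G)
    (hc : ∀ x y : G, orderOf x = p → orderOf y = p → IsPSolvable p ↥(Subgroup.closure ({x, y} : Set G))) :
    ∀ x y : N, orderOf x = p → orderOf y = p → IsPSolvable p ↥(Subgroup.closure ({x, y} : Set N)) := by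
  intro x y hx hy
  have e : (Subgroup.closure ({x, y} : Set N)).map N.subtype = Subgroup.closure ({(x : G), (y : G)} : Set G) := by
    rw [MonoidHom.map_closure, Set.image_pair]
    rfl
  let f := (Subgroup.closure ({x, y} : Set N)).equivMapOfInjective N.subtype N.subtype_injective
  have hs : IsPSolvable p ↥((Subgroup.closure ({x, y} : Set N)).map N.subtype) := by
    rw [e]
    exact hc _ _ (by rw [Subgroup.orderOf_coe, hx]) (by rw [Subgroup.orderOf_coe, hy])
  exact H03.isPSolvable_of_surjective (f := f.symm.toMonoidHom) f.symm.surjective hs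

/-- A nontrivial normal `p`-subgroup and no normal `p'`-subgroup: the group is solvable. -/
theorem solvable_of_normal (hcyc : ∀ S : Sylow p G, IsCyclic (S : Subgroup G)) (hO : pPrimeCore p G = ⊥)
    (Q : Subgroup G) [hQn : Q.Normal] (hQ : IsPGroup p Q) (hQ1 : Q ≠ ⊥) : Group.IsSolvable G := by
  classical
  have hpp : p.Prime := hp.out
  set C := Subgroup.centralizer (Q : Set G) with hC
  haveI hCn : C.Normal := inferInstance
  haveI hQc : IsCyclic Q := isCyclic_of_le_sylow hcyc Q hQ
  obtain ⟨g, hg⟩ := IsCyclic.exists_generator (α := Q)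
  -- `G / C` is abelian
  have hact : ∀ a : G, ∃ i : ℤ, a * (g : G) * a⁻¹ = (g : G) ^ i := by
    intro a
    have h1 : a * (g : G) * a⁻¹ ∈ Q := hQn.conj_mem _ g.2 a
    obtain ⟨i, hi⟩ := hg ⟨_, h1⟩
    exact ⟨i, by simpa using (congrArg Subtype.val hi).symm⟩
  have hconj : ∀ (a : G) (i : ℤ), a * (g : G) ^ i * a⁻¹ = (a * (g : G) * a⁻¹) ^ i := by
    intro a i
    rw [conj_zpow]
  have hmemC : ∀ c : G, c * (g : G) = (g : G) * c → c ∈ C := by
    intro c hc
    rw [hC, Subgroup.mem_centralizer_iff]
    intro y hy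
    obtain ⟨i, hi⟩ := hg ⟨y, hy⟩
    have h2 : y = (g : G) ^ i := by simpa using (congrArg Subtype.val hi).symm
    rw [h2]
    exact ((Commute.zpow_right (show Commute c (g : G) from hc) i).eq).symm
  have hquot : ∀ a b : G, (a * b)⁻¹ * (b * a) ∈ C := by
    intro a b
    obtain ⟨i, hi⟩ := hact a
    obtain ⟨j, hj⟩ := hact b
    have h1 : (a * b) * (g : G) * (a * b)⁻¹ = (g : G) ^ (i * j) := by
      calc (a * b) * (g : G) * (a * b)⁻¹ = a * (b * (g : G) * b⁻¹) * a⁻¹ := by group
        _ = (g : G) ^ (i * j) := by rw [hj, hconj, hi, ← zpow_mul]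
    have h2 : (b * a) * (g : G) * (b * a)⁻¹ = (g : G) ^ (i * j) := by
      calc (b * a) * (g : G) * (b * a)⁻¹ = b * (a * (g : G) * a⁻¹) * b⁻¹ := by group
        _ = (g : G) ^ (i * j) := by rw [hi, hconj, hj, ← zpow_mul, mul_comm]
    apply hmemC
    have h3 := h2.trans h1.symm
    have h4 : (b * a) * (g : G) * (b * a)⁻¹ = (a * b) * (g : G) * (a * b)⁻¹ := h3
    calc (a * b)⁻¹ * (b * a) * (g : G) = (a * b)⁻¹ * ((b * a) * (g : G) * (b * a)⁻¹) * (b * a) := by group
      _ = (a * b)⁻¹ * ((a * b) * (g : G) * (a * b)⁻¹) * (b * a) := by rw [h4]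
      _ = (g : G) * ((a * b)⁻¹ * (b * a)) := by group
  have hQcomm : Group.IsSolvable (G ⧸ C) := by
    apply Group.isSolvable_of_comm
    intro x y
    induction x using QuotientGroup.induction_on with
    | H a =>
      induction y using QuotientGroup.induction_on with
      | H b =>
        rw [← QuotientGroup.mk_mul, ← QuotientGroup.mk_mul, QuotientGroup.eq]
        exact hquot a b
  -- `C` is abelian
  let D : Subgroup G := ⁅C, C⁆
  have hDC : D ≤ C := Subgroup.commutator_le_left C C
  haveI hDn : D.Normal := Subgroup.commutator_normal C C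
  have hDcop : (Nat.card D).Coprime p := by
    rw [Nat.coprime_comm, Nat.Prime.coprime_iff_not_dvd hpp]
    intro hd
    obtain ⟨y, hy⟩ := exists_prime_orderOf_dvd_card' p hd
    have hyo : orderOf (y : G) = p := by rw [Subgroup.orderOf_coe, hy]
    have hyk : orderOf (y : G) = p ^ 1 := by rw [hyo, pow_one]
    obtain ⟨S, hS⟩ := (isPGroup_zpowers_of_pow hyk).exists_le_sylow
    have hyS : (y : G) ∈ (S : Subgroup G) := hS (Subgroup.mem_zpowers _)
    have hQS : Q ≤ (S : Subgroup G) := hQ.le_sylow_of_normal S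
    -- an element of order `p` of `Q`
    haveI : Nontrivial Q := by
      obtain ⟨z, hz, hz1⟩ := (Subgroup.bot_or_exists_ne_one Q).resolve_left hQ1
      exact ⟨⟨⟨z, hz⟩, 1, fun h => hz1 (congrArg Subtype.val h)⟩⟩
    obtain ⟨k, hk⟩ := IsPGroup.iff_card.mp hQ
    have hk0 : k ≠ 0 := by
      rintro rfl
      rw [pow_zero] at hk
      exact hQ1 ((Subgroup.card_eq_one).mp hk)
    obtain ⟨z, hz⟩ := exists_prime_orderOf_dvd_card' (G := Q) p (by rw [hk]; exact dvd_pow_self p hk0)
    have hzo : orderOf (z : G) = p := by rw [Subgroup.orderOf_coe, hz]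
    haveI hSc : IsCyclic (S : Subgroup G) := hcyc S
    have hyQ : (y : G) ∈ Q := by
      have h1 : (⟨(y : G), hyS⟩ : (S : Subgroup G)) ∈ Subgroup.zpowers (⟨(z : G), hQS z.2⟩ : (S : Subgroup G)) := by
        apply H19.mem_zpowers_of_orderOf_eq_prime (r := p)
        · rw [Subgroup.orderOf_mk, hzo]
        · rw [Subgroup.orderOf_mk, hyo]
      obtain ⟨i, hi⟩ := h1
      have h2 : (y : G) = (z : G) ^ i := by simpa using (congrArg Subtype.val hi).symm
      rw [h2]
      exact Q.zpow_mem z.2 i
    have hSab := comm_of_isPGroup hcyc (S : Subgroup G) S.isPGroup'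
    have hSC : (S : Subgroup G) ≤ C := by
      intro a ha
      rw [hC, Subgroup.mem_centralizer_iff]
      intro b hb
      exact hSab b (hQS hb) a ha
    have hyC : (y : G) ∈ C := hDC y.2
    let S₁ : Sylow p C := S.subtype hSC
    have hS₁ : (S₁ : Subgroup C) = (S : Subgroup G).subgroupOf C := Sylow.coe_subtype S hSC
    have hS₁mem : ∀ c : C, c ∈ (S₁ : Subgroup C) ↔ (c : G) ∈ (S : Subgroup G) := by
      intro c
      rw [hS₁]
      exact Subgroup.mem_subgroupOf
    have hS₁ab : IsMulCommutative (S₁ : Subgroup C) := by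
      refine ⟨⟨fun a b => Subtype.ext (Subtype.ext ?_)⟩⟩
      exact hSab _ ((hS₁mem _).1 a.2) _ ((hS₁mem _).1 b.2)
    have hzero := H01.hall_inf_commutator_center (S₁ : Subgroup C) hS₁ab S₁.card_coprime_index
    have hmem : (⟨(y : G), hyC⟩ : C) ∈ (S₁ : Subgroup C) ⊓ commutator C ⊓ Subgroup.center C := by
      refine Subgroup.mem_inf.mpr ⟨Subgroup.mem_inf.mpr ⟨?_, ?_⟩, ?_⟩
      · exact (hS₁mem _).2 hyS
      · have h1 : (y : G) ∈ (commutator C).map C.subtype := by
          rw [Subgroup.map_subtype_commutator]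
          exact y.2
        obtain ⟨c, hc, hc'⟩ := h1
        have h2 : c = ⟨(y : G), hyC⟩ := Subtype.ext hc'
        rwa [← h2]
      · rw [Subgroup.mem_center_iff]
        intro a
        apply Subtype.ext
        have h1 := Subgroup.mem_centralizer_iff.mp a.2 (y : G) hyQ
        exact h1.symm
    rw [hzero, Subgroup.mem_bot] at hmem
    have h3 : (y : G) = 1 := congrArg Subtype.val hmem
    rw [h3, orderOf_one] at hyo
    exact hpp.one_lt.ne hyo
  have hDbot : D = ⊥ := by
    have h1 := H08.le_pPrimeCore hDn hDcop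
    rw [hO] at h1
    exact le_bot_iff.mp h1
  have hCcomm : Group.IsSolvable C := by
    apply Group.isSolvable_of_comm
    intro a b
    have h1 : ⁅(a : G), (b : G)⁆ ∈ D := Subgroup.commutator_mem_commutator a.2 b.2
    rw [hDbot, Subgroup.mem_bot, commutatorElement_eq_one_iff_mul_comm] at h1
    exact Subtype.ext h1
  refine Group.isSolvable_of_ker_le_range C.subtype (QuotientGroup.mk' C) ?_
  rw [QuotientGroup.ker_mk', Subgroup.range_subtype]

/-- The theorem. -/
theorem solv_all : ∀ (n : ℕ) (G : Type u) [Group G] [Finite G], Nat.card G = n →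
    (∀ S : Sylow p G, IsCyclic (S : Subgroup G)) →
    (∀ x y : G, orderOf x = p → orderOf y = p → IsPSolvable p ↥(Subgroup.closure ({x, y} : Set G))) →
    IsPSolvable p G := by
  intro n
  induction n using Nat.strong_induction_on with
  | _ n ih =>
    intro G _ _ hcard hcyc hc
    classical
    have hpp : p.Prime := hp.out
    by_cases hdvd : p ∣ Nat.card G
    swap
    · have hcop : (Nat.card (⊤ : Subgroup G)).Coprime p := by
        rw [Subgroup.card_top, Nat.coprime_comm, Nat.Prime.coprime_iff_not_dvd hpp]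
        exact hdvd
      exact H19.isPSolvable_of_normal_chain (⊤ : Subgroup G) ⊤ le_rfl hcop (by simp) (k := 0) (by simp)
    by_cases hO : pPrimeCore p G = ⊥
    swap
    · haveI hOn : (pPrimeCore p G).Normal := H05.pp_normal p
      have hcO : (Nat.card (pPrimeCore p G)).Coprime p := H06.coprime_card_pPrimeCore p
      have hlt : Nat.card (G ⧸ pPrimeCore p G) < n := by
        rw [← hcard]
        have h1 := Subgroup.card_eq_card_quotient_mul_card_subgroup (pPrimeCore p G)
        have h2 : 1 < Nat.card (pPrimeCore p G) := by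
          haveI : Nontrivial (pPrimeCore p G) := by
            obtain ⟨z, hz, hz1⟩ := (Subgroup.bot_or_exists_ne_one (pPrimeCore p G)).resolve_left hO
            exact ⟨⟨⟨z, hz⟩, 1, fun h => hz1 (congrArg Subtype.val h)⟩⟩
          exact Finite.one_lt_card
        have h3 : 0 < Nat.card (G ⧸ pPrimeCore p G) := Nat.card_pos
        rw [h1]
        nlinarith
      exact isPSolvable_of_quot _ hcO (ih _ hlt (G ⧸ pPrimeCore p G) rfl (cyc_quot _ hcyc) (pair_quot _ hcO hc))
    by_cases hsimple : ∀ N : Subgroup G, N.Normal → N = ⊥ ∨ N = ⊤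
    · haveI : Nontrivial G := by
        rw [← Finite.one_lt_card_iff_nontrivial]
        exact lt_of_lt_of_le hpp.one_lt (Nat.le_of_dvd Nat.card_pos hdvd)
      haveI : IsSimpleGroup G := ⟨fun N hN => hsimple N hN⟩
      by_cases hab : IsMulCommutative G
      · haveI : Group.IsSolvable G := Group.isSolvable_of_comm hab.is_comm.comm
        exact H06.isPSolvable_of_isSolvable p G
      · exfalso
        obtain ⟨P⟩ : Nonempty (Sylow p G) := inferInstance
        exact main_simple hab P (Sylow.ne_bot_of_dvd_card P hdvd) hcyc hc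
    · push Not at hsimple
      obtain ⟨N, hNn, hN1, hN2⟩ := hsimple
      haveI := hNn
      have hlt : Nat.card N < n := by
        rw [← hcard]
        refine lt_of_le_of_ne (Subgroup.card_le_card_group N) ?_
        intro h
        exact hN2 (Subgroup.eq_top_of_card_eq N h)
      have hsN : IsPSolvable p N := ih _ hlt N rfl (cyc_sub N hcyc) (pair_sub N hc)
      have hchar : (pPrimeCore p N).Characteristic := H06.pPrimeCore_characteristic N p
      have hmapn : ((pPrimeCore p N).map N.subtype).Normal := inferInstance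
      have hcard2 : (Nat.card ((pPrimeCore p N).map N.subtype)).Coprime p := by
        rw [Subgroup.card_map_of_injective N.subtype_injective]
        exact H06.coprime_card_pPrimeCore p
      have hON : pPrimeCore p N = ⊥ := by
        have h1 := H08.le_pPrimeCore hmapn hcard2
        rw [hO, le_bot_iff] at h1
        exact (Subgroup.map_eq_bot_iff_of_injective _ N.subtype_injective).1 h1
      have hhh := H08.hall_higman hsN hON
      have hpc : pCore p N ≠ ⊥ := by
        intro h
        apply hN1
        rw [h] at hhh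
        have h1 : Subgroup.centralizer (((⊥ : Subgroup N) : Set N)) = ⊤ := by
          simp
        rw [h1, top_le_iff] at hhh
        rw [eq_bot_iff]
        intro z hz
        have h2 : (⟨z, hz⟩ : N) ∈ (⊤ : Subgroup N) := trivial
        rw [← hhh, Subgroup.mem_bot] at h2
        exact Subgroup.mem_bot.mpr (congrArg Subtype.val h2)
      have hcp : (pCore p N).Characteristic := H12.pCore_characteristic N
      haveI hQn : ((pCore p N).map N.subtype).Normal := inferInstance
      have hQp : IsPGroup p ((pCore p N).map N.subtype) := (H01.pCore_isPGroup p).map _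
      have hQ1 : (pCore p N).map N.subtype ≠ ⊥ := by
        intro h
        exact hpc ((Subgroup.map_eq_bot_iff_of_injective _ N.subtype_injective).1 h)
      haveI := solvable_of_normal hcyc hO _ hQp hQ1
      exact H06.isPSolvable_of_isSolvable p G

end Cfsg.Agent.H08.Mom.Cyc
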